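import Cfsg.Agent.H7.Bf0
import Cfsg.Agent.H29.G2N
import Cfsg.Agent.H25.JnO

/-! Sylow `2`-subgroups of type `M₁₂`: odd order elements acting trivially on `E` modulo `t`. -/

set_option autoImplicit false
set_option linter.unusedVariables false

namespace Cfsg.Agent.H7.Bf

open Subgroup Cfsg.Agent.H19.Gt Cfsg.Agent.H1.G2

universe u

variable {G : Type u} {K : Type*} [Group G] [Finite G] [CommGroup K] {τ : K × K →* G} {u v : G} {z : K}
  {S : Sylow 2 G}

/-- the elements fixed by `n` modulo `t` -/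
def b6a_H (t n : G) (hc : ∀ g, g * t = t * g) (tt : t * t = 1) : Subgroup G where
  carrier := {s | n * s * n⁻¹ = s ∨ n * s * n⁻¹ = s * t}
  one_mem' := .inl (by group)
  mul_mem' := by
    intro a b ha hb
    have e : n * (a * b) * n⁻¹ = n * a * n⁻¹ * (n * b * n⁻¹) := by group
    show _ ∨ _
    rw [e]
    rcases ha with ha | ha <;> rcases hb with hb | hb <;> rw [ha, hb]
    · exact .inl rfl
    · exact .inr (by rw [mul_assoc])
    · exact .inr (by rw [mul_assoc, ← hc b, mul_assoc])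
    · exact .inl (by rw [mul_assoc, ← mul_assoc t, ← hc b, mul_assoc b, tt, mul_one])
  inv_mem' := by
    intro a ha
    have e : n * a⁻¹ * n⁻¹ = (n * a * n⁻¹)⁻¹ := by group
    show _ ∨ _
    rw [e]
    rcases ha with ha | ha <;> rw [ha]
    · exact .inl rfl
    · exact .inr (by rw [mul_inv_rev, inv_eq_of_mul_eq_one_right tt, hc])

theorem b6a_K (h : Cw S τ u v z) {ρ : K} (r : ρ * ρ = z) (c : K) : c = 1 ∨ c = z ∨ c = ρ ∨ c = ρ * z := by
  have h4 : c * c * (c * c) = 1 := by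
    have : c ^ Nat.card K = 1 := pow_card_eq_one'
    rw [h.four] at this
    rw [← this]; simp only [pow_succ, pow_zero, one_mul, mul_assoc]
  rcases h.gz.inv2 h4 with e | e
  · rcases h.gz.inv2 e with e | e
    exacts [.inl e, .inr (.inl e)]
  · have e2 : ρ⁻¹ * c * (ρ⁻¹ * c) = 1 := by
      rw [mul_mul_mul_comm, e, ← r, ← mul_inv, inv_mul_cancel]
    rcases h.gz.inv2 e2 with e3 | e3
    · exact .inr (.inr (.inl (inv_mul_eq_one.1 e3).symm))
    · exact .inr (.inr (.inr (by rw [← e3, mul_inv_cancel_left])))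

theorem b6a_ns (h : Cw S τ u v z) {ρ : K} (r : ρ * ρ = z) : ¬ IsSquare ρ := by
  rintro ⟨c, e⟩
  have : c ^ Nat.card K = 1 := pow_card_eq_one'
  rw [h.four] at this
  exact h.gz.z1 (by rw [← r, e, ← this]; simp only [pow_succ, pow_zero, one_mul, mul_assoc])

theorem b6a_mod (h : Cw S τ u v z) (hM : h.gz.M.Normal) {n : G}
    (hn : ∀ s, InE τ u z s → n * s * n⁻¹ = s ∨ n * s * n⁻¹ = s * τ (z, z)) :
    h.gz.M ≤ b6a_H (τ (z, z)) n h.cen h.gz.tt := by
  have g := h.gz.toGs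
  set H := b6a_H (τ (z, z)) n h.cen h.gz.tt with hH
  have mH : ∀ s, s ∈ H ↔ n * s * n⁻¹ = s ∨ n * s * n⁻¹ = s * τ (z, z) := fun s => Iff.rfl
  have nM : ∀ s ∈ h.gz.M, n * s * n⁻¹ ∈ h.gz.M := fun s hs => hM.conj_mem s hs n
  have n2 : ∀ q ∈ h.gz.Q, n * q * n⁻¹ ∈ h.gz.Q := fun q hq => pN h.gz h.cen nM hq
  have n1 : ∀ q ∈ h.gz.flp.Q, n * q * n⁻¹ ∈ h.gz.flp.Q := fun q hq =>
    pN h.gz.flp (h.gz.fl_t.symm ▸ h.cen) (h.gz.flp_M.symm ▸ nM) hq
  have fac : ∀ a ∈ h.gz.flp.Q, ∀ b ∈ h.gz.Q, a * b ∈ H → a ∈ H ∧ b ∈ H := by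
    intro a ha b hb hab
    suffices k : a ∈ H from ⟨k, by simpa using mul_mem (inv_mem k) hab⟩
    have k1 : a⁻¹ * (n * a * n⁻¹) ∈ h.gz.flp.Q := mul_mem (inv_mem ha) (n1 a ha)
    have k2 : a⁻¹ * (n * a * n⁻¹) ∈ h.gz.Q := by
      have e : a⁻¹ * (n * a * n⁻¹) = a⁻¹ * (n * (a * b) * n⁻¹) * (n * b * n⁻¹)⁻¹ := by group
      rw [e]
      refine mul_mem ?_ (inv_mem (n2 b hb))
      rcases (mH _).1 hab with e2 | e2 <;> rw [e2]
      · simpa using hb
      · rw [mul_assoc, inv_mul_cancel_left]; exact mul_mem hb h.gz.tQ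
    rcases h.gz.Q_inf k1 k2 with e | e
    · exact .inl (inv_mul_eq_one.1 e).symm
    · exact .inr (by rw [← e, mul_inv_cancel_left])
  obtain ⟨ρ, r, -⟩ := h.gz.rho
  have tH : τ (z, z) ∈ H := .inl (by rw [h.cen n, mul_inv_cancel_right])
  have yH : τ (z, 1) ∈ H := hn _ (.inl rfl)
  have yH' : τ (1, z) ∈ H := hn _ (.inr (.inl rfl))
  obtain ⟨r1, r2⟩ := fac (τ (ρ, ρ)) (h.gz.memQ'.2 ⟨ρ, .inl rfl⟩) (τ (ρ, ρ⁻¹)) ⟨ρ, .inl rfl⟩
    (by rw [tm, r, mul_inv_cancel]; exact yH)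
  have uH : u ∈ H := by
    have : τ (ρ, ρ) * u ∈ H := hn _ (.inr (.inr ⟨ρ, ρ, b6a_ns h r, b6a_ns h r, rfl⟩))
    simpa using mul_mem (inv_mem r1) this
  have vH : v ∈ H := by
    have := (fac (τ (z, z * z) * (u * v)) (h.gz.memQ'.2 ⟨z, .inr rfl⟩) (τ (1, z * 1⁻¹) * v) ⟨1, .inr rfl⟩
      (by
        have e : τ (z, z * z) * (u * v) * (τ (1, z * 1⁻¹) * v) = u := by
          simp only [mul_assoc, g.ut, g.vt', g.vv, tm', mul_one, one_mul, inv_one, h.gz.zi, h.gz.zz, t1]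
        rw [e]; exact uH)).2
    rw [inv_one, mul_one] at this
    simpa using mul_mem (inv_mem yH') this
  have d1 : ∀ c : K, τ (c, c) ∈ H := fun c => by
    rcases b6a_K h r c with rfl | rfl | rfl | rfl
    · rw [t1]; exact one_mem _
    · exact tH
    · exact r1
    · rw [← tm]; exact mul_mem r1 tH
  have d2 : ∀ c : K, τ (c, c⁻¹) ∈ H := fun c => by
    rcases b6a_K h r c with rfl | rfl | rfl | rfl
    · rw [inv_one, t1]; exact one_mem _
    · rw [h.gz.zi]; exact tH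
    · exact r2
    · rw [mul_inv, h.gz.zi, ← tm]; exact mul_mem r2 tH
  have k : ∀ a b : K, IsSquare (a * b) → τ (a, b) ∈ H := by
    rintro a b ⟨c, e⟩
    have : τ (a, b) = τ (c, c) * τ (a * c⁻¹, (a * c⁻¹)⁻¹) := by
      rw [tm, g.teq]
      exact ⟨by rw [mul_left_comm, mul_inv_cancel, mul_one], by
        rw [mul_inv, inv_inv, mul_left_comm, ← e, inv_mul_cancel_left]⟩
    rw [this]; exact mul_mem (d1 c) (d2 _)
  rintro _ ⟨a, b, e, rfl | rfl | rfl | rfl⟩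
  exacts [k a b e, mul_mem (k a b e) uH, mul_mem (k a b e) vH, mul_mem (k a b e) (mul_mem uH vH)]

theorem b6a_cS (h : Gz (S : Subgroup G) τ u v z) {s : G} (hs : s ∈ (S : Subgroup G))
    (hc : ∀ m ∈ h.M, m * s = s * m) : s = 1 ∨ s = τ (z, z) := by
  have g := h.toGs
  obtain ⟨ρ, r, -⟩ := h.rho
  obtain ⟨a, b, rfl | rfl | rfl | rfl⟩ := (h.mem _).1 hs
  · have e1 := (g.cv (c := a) (d := b) (a := 1) (b := 1)).1 (by rw [t1, one_mul]; exact (hc v h.vM).symm)
    have e2 := (g.cu (c := a) (d := b) (a := 1) (b := 1)).1 (by rw [t1, one_mul]; exact (hc u h.uM).symm)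
    subst e1
    rcases h.inv2 e2.1 with rfl | rfl
    exacts [.inl (t1 τ), .inr rfl]
  · have := g.cu.1 (hc (τ (ρ, ρ)) ⟨ρ, ρ, ⟨ρ, rfl⟩, .inl rfl⟩)
    exact (h.z1 (r ▸ this.1)).elim
  · exact (h.z1 (g.cv.1 (hc _ h.yM))).elim
  · have := g.cw.1 (hc _ h.yM)
    rw [h.zi] at this
    exact (h.z1 this.symm).elim

theorem b6a_C (h : Cw S τ u v z) (hO : oddCore G = ⊥) (hM : h.gz.M.Normal) {n : G}
    (hn : n ∈ centralizer (h.gz.M : Set G)) : n ∈ zpowers (τ (z, z)) := by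
  haveI : (zpowers (τ (z, z))).Normal := ⟨fun x hx k => by
    obtain ⟨i, rfl⟩ := hx
    have : Commute k (τ (z, z) ^ i) := (show Commute k (τ (z, z)) from h.cen k).zpow_right i
    simp only []
    rw [this.eq, mul_inv_cancel_right]; exact ⟨i, rfl⟩⟩
  have hO' := GO.Jn.jO h.cen h.gz.tt hO
  let C := centralizer (h.gz.M : Set G)
  haveI : C.Normal := normal_centralizer
  let π := QuotientGroup.mk' (zpowers (τ (z, z)))
  haveI : (C.map π).Normal := Normal.map inferInstance π (QuotientGroup.mk'_surjective _)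
  have hc : (Nat.card (C.map π)).Coprime 2 := by
    rw [Nat.coprime_comm, Nat.Prime.coprime_iff_not_dvd Nat.prime_two]
    intro h2
    obtain ⟨⟨_, c, hc, rfl⟩, hx⟩ := exists_prime_orderOf_dvd_card' 2 h2
    rw [← orderOf_coe] at hx
    have e1 : π (c ^ 2) = 1 := by rw [map_pow, ← hx]; exact pow_orderOf_eq_one _
    obtain ⟨i, hi⟩ := (QuotientGroup.eq_one_iff _).1 e1
    have e2 : c ^ 2 ^ 2 = 1 := by
      rw [show 2 ^ 2 = 2 * 2 from rfl, pow_mul, ← hi]
      simp only []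
      rw [← zpow_natCast, ← zpow_mul, mul_comm, zpow_mul, zpow_natCast, pow_two, h.gz.tt, one_zpow]
    have p : IsPGroup 2 (zpowers c) := by
      rintro ⟨_, j, rfl⟩
      exact ⟨2, Subtype.ext (by
        simp only [coe_pow, coe_one]
        rw [← zpow_natCast, ← zpow_mul, mul_comm, zpow_mul, zpow_natCast, e2, one_zpow])⟩
    obtain ⟨R, hR⟩ := p.exists_le_sylow
    obtain ⟨k, hk⟩ := MulAction.exists_smul_eq G R S
    have hS : k * c * k⁻¹ ∈ (S : Subgroup G) := by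
      rw [← hk]; exact ⟨c, hR (mem_zpowers c), rfl⟩
    have hC : k * c * k⁻¹ ∈ C := Normal.conj_mem inferInstance c hc k
    have e3 : π c = 1 := by
      refine (QuotientGroup.eq_one_iff _).2 ?_
      rcases b6a_cS h.gz hS (fun m hm => mem_centralizer_iff.1 hC m hm) with e | e
      · rw [show c = 1 by simpa using e]; exact one_mem _
      · rw [show c = τ (z, z) by
          rw [← mul_left_inj k⁻¹, ← mul_right_inj k, ← mul_assoc, e, ← mul_assoc, h.cen k,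
            mul_inv_cancel_right]]
        exact mem_zpowers _
    simp only [e3, orderOf_one] at hx
    exact absurd hx (by norm_num)
  have : π n ∈ (⊥ : Subgroup _) := hO' ▸ H2.le_pPrimeCore hc ⟨n, hn, rfl⟩
  exact (QuotientGroup.eq_one_iff _).1 this

theorem b6a (h : Cw S τ u v z) (hO : oddCore G = ⊥) (hM : h.gz.M.Normal) {n : G} (ho : Odd (orderOf n))
    (hn : ∀ s, InE τ u z s → n * s * n⁻¹ = s ∨ n * s * n⁻¹ = s * τ (z, z)) : n = 1 := by
  have h2 : n ^ 2 ∈ centralizer (h.gz.M : Set G) := mem_centralizer_iff.2 fun m hm => by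
    have e : n ^ 2 * m * (n ^ 2)⁻¹ = n * (n * m * n⁻¹) * n⁻¹ := by rw [pow_two]; group
    rw [eq_comm, ← mul_inv_eq_iff_eq_mul, e]
    rcases b6a_mod h hM hn hm with e1 | e1
    · rw [e1, e1]
    · rw [e1, ← mul_assoc, mul_assoc _ (τ (z, z)), ← h.cen, ← mul_assoc, e1, mul_assoc, h.gz.tt, mul_one]
  obtain ⟨i, hi⟩ := b6a_C h hO hM h2
  have e4 : n ^ 2 ^ 2 = 1 := by
    rw [show 2 ^ 2 = 2 * 2 from rfl, pow_mul, ← hi]
    simp only []
    rw [← zpow_natCast, ← zpow_mul, mul_comm, zpow_mul, zpow_natCast, pow_two, h.gz.tt, one_zpow]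
  have := (Nat.Coprime.pow_right 2 (Nat.coprime_two_right.2 ho)).eq_one_of_dvd
    (orderOf_dvd_of_pow_eq_one e4)
  exact orderOf_eq_one_iff.1 this

end Cfsg.Agent.H7.Bf
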