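import Mathlib
import Cfsg.Agent.H23.Enc
import Cfsg.Agent.H16.Supp

/-! A group of even permutations of degree 13 containing an 11-cycle and a 13-cycle is `A₁₃`. -/

set_option autoImplicit false
set_option linter.unusedSectionVars false
set_option linter.unusedVariables false

namespace Cfsg.Agent.H23.A13
open Cfsg.Agent.H23.Enc Equiv Equiv.Perm Function

noncomputable def upd (c i j : ℕ) : ℕ :=
  mk fun k => cond (Nat.beq k i) j (cond (Nat.beq k j) i (ap c k))

noncomputable def srch (chk : ℕ → Bool) (n : ℕ) : ℕ → Bool :=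
  Nat.rec chk (fun i r c => cond (Nat.beq (ap c i) 15)
    (al 13 fun j => !(Nat.beq (ap c j) 15) || Nat.beq j i || r (upd c i j)) (r c)) n

theorem bf {a b : ℕ} (h : a ≠ b) : Nat.beq a b = false :=
  Bool.eq_false_iff.2 fun e => h (Nat.eq_of_beq_eq_true e)

theorem srch_ok (f : ℕ → ℕ) (h1 : ∀ k < 13, f k < 13) (h2 : ∀ k < 13, f (f k) = k)
    (h3 : ∀ k < 11, f k ≠ k) (chk : ℕ → Bool) (n : ℕ) (hn : n ≤ 11) : ∀ c, srch chk n c = true →
    (∀ k < 13, ap c k = 15 ∧ ap c (f k) = 15 ∨ ap c k = f k) → (∀ k < 13, n ≤ k → ap c k = f k) →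
    ∃ c, chk c = true ∧ ∀ k < 13, ap c k = f k := by
  induction n with
  | zero => exact fun c h _ a => ⟨c, h, fun k hk => a k hk k.zero_le⟩
  | succ i ih =>
    intro c h a b
    change cond (Nat.beq (ap c i) 15) (al 13 fun j => !(Nat.beq (ap c j) 15) || Nat.beq j i ||
      srch chk i (upd c i j)) (srch chk i c) = true at h
    have hi := h1 i (by omega)
    by_cases e : ap c i = 15
    · rw [show Nat.beq (ap c i) 15 = true by simpa using e, cond_true, al_iff] at h
      have e' : ap c (f i) = 15 := by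
        rcases a i (by omega) with t | t
        exacts [t.2, by omega]
      have h := h (f i) hi
      simp only [Bool.or_eq_true, Bool.not_eq_true', Nat.beq_eq, e', h3 i (by omega), or_false,
        show Nat.beq 15 15 = true from rfl, Bool.true_eq_false, false_or] at h
      have u : ∀ k < 13, ap (upd c i (f i)) k = if k = i then f i else if k = f i then i else ap c k :=
        fun k hk => by
        rw [upd, ap_mk (fun k _ => ?_) (by omega)]
        · by_cases p : k = i <;> by_cases q : k = f i <;> simp [p, q, Bool.cond_eq_ite]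
        · have := ap_lt c k
          cases Nat.beq k i <;> cases Nat.beq k (f i) <;> simp <;> omega
      refine ih (by omega) _ h (fun k hk => ?_) fun k hk l => ?_
      · rw [u k hk, u _ (h1 k hk)]
        by_cases p : k = i
        · simp [p]
        by_cases q : k = f i
        · simp [q, h2 i (by omega)]
        have p' : f k ≠ i := fun e => q (by rw [← e, h2 k hk])
        have q' : f k ≠ f i := fun e => p (by rw [← h2 k hk, e, h2 i (by omega)])
        simpa [p, q, p', q'] using a k hk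
      · rw [u k hk]
        split_ifs with p q
        exacts [p ▸ rfl, by rw [q, h2 i (by omega)], b k hk (by omega)]
    · rw [bf e, cond_false] at h
      refine ih (by omega) _ h a fun k hk l => ?_
      rcases l.eq_or_lt with rfl | l
      exacts [(a _ hk).resolve_left fun t => e t.1, b k hk l]

noncomputable def pw (w n : ℕ) : ℕ := mk (it (ap w) n)

theorem semi_mk {g : Fin 13 → Fin 13} {f : ℕ → ℕ} (h : Semiconj Fin.val g f) (l : ∀ i < 16, f i < 16) :
    Semiconj Fin.val g (ap (mk f)) := fun j => by rw [ap_mk l (by omega), h j]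

theorem semi_it {g : Perm (Fin 13)} {f : ℕ → ℕ} (h : Semiconj Fin.val g f) (n : ℕ) :
    Semiconj Fin.val ⇑(g ^ n) (it f n) := fun j => by
  rw [it_eq, ← (h.iterate_right n).eq j, iterate_eq_pow]

theorem semi_pw {g : Perm (Fin 13)} {w : ℕ} (h : Semiconj Fin.val g (ap w)) (n : ℕ) :
    Semiconj Fin.val ⇑(g ^ (n + 1)) (ap (pw w (n + 1))) :=
  semi_mk (semi_it h _) fun _ _ => ap_lt _ _

noncomputable def cnt (w n : ℕ) : ℕ := Nat.rec 0 (fun k r => cond (Nat.beq (ap w k) k) r (r + 1)) n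

theorem cnt_eq (w n : ℕ) : cnt w n = ((Finset.range n).filter fun k => ap w k ≠ k).card := by
  induction n with
  | zero => rfl
  | succ n ih =>
    rw [Finset.range_add_one, Finset.filter_insert, show cnt w (n + 1) =
      cond (Nat.beq (ap w n) n) (cnt w n) (cnt w n + 1) from rfl, ih]
    by_cases e : ap w n = n
    · simp [e]
    · rw [if_pos e, Finset.card_insert_of_notMem (by simp), bf e]
      rfl

theorem card_supp {g : Perm (Fin 13)} {w : ℕ} (h : Semiconj Fin.val g (ap w)) :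
    g.support.card = cnt w 13 := by
  rw [cnt_eq, ← Finset.card_map Fin.valEmbedding]
  congr 1
  ext k
  simp only [Finset.mem_map, Perm.mem_support, Fin.valEmbedding_apply, Finset.mem_filter, Finset.mem_range]
  refine ⟨?_, fun ⟨a, b⟩ => ⟨⟨k, a⟩, fun e => b ?_, rfl⟩⟩
  · rintro ⟨a, b, rfl⟩
    exact ⟨a.2, by rw [← h a]; exact fun e => b (Fin.ext e)⟩
  · rw [← h ⟨k, a⟩, e]

def cc : Perm (Fin 13) := ⟨![1, 2, 3, 4, 5, 6, 7, 8, 9, 10, 0, 11, 12],
  ![10, 0, 1, 2, 3, 4, 5, 6, 7, 8, 9, 11, 12], by decide, by decide⟩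
def tt : Perm (Fin 13) := ⟨![0, 10, 9, 8, 7, 6, 5, 4, 3, 2, 1, 12, 11],
  ![0, 10, 9, 8, 7, 6, 5, 4, 3, 2, 1, 12, 11], by decide, by decide⟩

theorem semi_c : Semiconj Fin.val cc (ap 0xcb0a987654321) := by unfold Semiconj; decide
theorem semi_t : Semiconj Fin.val tt (ap 0xbc123456789a0) := by unfold Semiconj; decide

noncomputable def wf (c : ℕ) (v : ℕ × ℕ × ℕ × ℕ) : ℕ :=
  mk fun k => ap c (it (ap 0xcb0a987654321) v.1 (it (ap 0xbc123456789a0) v.2.1
    (ap c (it (ap 0xcb0a987654321) v.2.2.1 (it (ap 0xbc123456789a0) v.2.2.2 k)))))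

noncomputable def chk (W : List (ℕ × ℕ × ℕ × ℕ)) (c : ℕ) : Bool :=
  List.rec false (fun v _ r => Nat.beq (cnt (pw (pw (pw (wf c v) 8) 5) 7) 13) 3 || r) W

theorem of_chk {G : Subgroup (Perm (Fin 13))} (hc : cc ∈ G) (ht : tt ∈ G) {s : Perm (Fin 13)}
    (hs : s ∈ G) {c : ℕ} (h : Semiconj Fin.val s (ap c)) (W : List (ℕ × ℕ × ℕ × ℕ))
    (hW : chk W c = true) : ∃ g ∈ G, g.support.card = 3 := by
  induction W with
  | nil => exact absurd hW Bool.false_ne_true
  | cons v W ih =>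
    rcases Bool.or_eq_true_iff.1 hW with e | e
    swap; · exact ih e
    have a : Semiconj Fin.val ⇑(s * cc ^ v.1 * tt ^ v.2.1 * s * cc ^ v.2.2.1 * tt ^ v.2.2.2)
        (ap (wf c v)) := semi_mk (fun j => by
      simp only [Perm.mul_apply, h.eq, (semi_it semi_c _).eq, (semi_it semi_t _).eq])
      fun _ _ => ap_lt _ _
    refine ⟨_, ?_, (card_supp (semi_pw (semi_pw (semi_pw a 7) 4) 6)).trans (Nat.eq_of_beq_eq_true e)⟩
    exact pow_mem (pow_mem (pow_mem (mul_mem (mul_mem (mul_mem (mul_mem (mul_mem hs (pow_mem hc _))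
      (pow_mem ht _)) hs) (pow_mem hc _)) (pow_mem ht _)) _) _) _

set_option maxRecDepth 100000 in
theorem comp : srch (chk [(0, 1, 0, 1), (0, 1, 1, 0), (0, 1, 3, 0), (1, 0, 7, 0), (2, 0, 3, 0),
    (1, 0, 3, 1), (1, 0, 8, 1), (3, 1, 4, 0), (1, 0, 6, 1), (0, 1, 2, 0), (3, 0, 4, 0), (1, 0, 5, 1),
    (1, 1, 10, 1), (2, 1, 9, 1), (4, 0, 8, 1), (1, 0, 2, 1), (1, 0, 6, 0), (2, 1, 4, 1), (1, 0, 2, 0),
    (1, 1, 5, 0), (2, 0, 4, 0), (3, 0, 6, 0), (1, 1, 3, 1)]) 11 0x0bffffffffffc = true := by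
  decide +kernel

theorem core {G : Subgroup (Perm (Fin 13))} (hc : cc ∈ G) (ht : tt ∈ G) {g : Perm (Fin 13)}
    (hg : g ∈ G) (g0 : g 0 = 11) (g1 : g 11 = 12) (g2 : g 12 = 0) : ∃ g ∈ G, g.support.card = 3 := by
  obtain ⟨s, hs⟩ : ∃ s, s = g * tt * g⁻¹ := ⟨_, rfl⟩
  have sG : s ∈ G := hs ▸ mul_mem (mul_mem hg ht) (inv_mem hg)
  have e : ∀ k, s (g k) = g (tt k) := fun k => by simp [hs]
  have s2 : ∀ k, s (s k) = k := fun k => by
    obtain ⟨k, rfl⟩ := g.surjective k
    rw [e, e, (by decide : ∀ k, tt (tt k) = k)]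
  have s3 : ∀ k, s k = k → k = 11 := fun k h => by
    obtain ⟨k, rfl⟩ := g.surjective k
    rw [e, g.apply_eq_iff_eq] at h
    rw [(by decide : ∀ k, tt k = k → k = 0) k h, g0]
  have a0 : s 11 = 11 := by rw [← g0, e]; rfl
  have a1 : s 12 = 0 := by rw [← g1, e, ← g2]; rfl
  have a2 : s 0 = 12 := by rw [← a1, s2]
  have h := semi (n := 13) (by norm_num) s
  have v : ∀ k (hk : k < 13), ap (code s) k = s ⟨k, hk⟩ := fun k hk => (h ⟨k, hk⟩).symm
  have w : ∀ k : Fin 13, k ≠ 0 ∧ k ≠ 11 ∧ k ≠ 12 → ap 0x0bffffffffffc k = 15 := by decide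
  obtain ⟨c, c1, c2⟩ := srch_ok (ap (code s)) (fun k hk => by rw [v k hk]; exact Fin.is_lt _)
    (fun k hk => by rw [v k hk, v _ (Fin.is_lt _), Fin.eta, s2])
    (fun k hk e => by
      rw [v k (by omega)] at e
      have := congrArg Fin.val (s3 _ (Fin.ext e))
      simp at this; omega) _ 11 le_rfl _ comp (fun k hk => by
      rw [v k hk]
      by_cases p0 : k = 0; · subst p0; exact .inr (congrArg Fin.val a2.symm)
      by_cases p1 : k = 11; · subst p1; exact .inr (congrArg Fin.val a0.symm)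
      by_cases p2 : k = 12; · subst p2; exact .inr (congrArg Fin.val a1.symm)
      refine .inl ⟨w ⟨k, hk⟩ (by simp [Fin.ext_iff, p0, p1, p2]), w _ ⟨fun e => p2 ?_, fun e => p1 ?_,
        fun e => p0 ?_⟩⟩
      exacts [congrArg Fin.val (s.injective (e.trans a1.symm)),
        congrArg Fin.val (s.injective (e.trans a0.symm)),
        congrArg Fin.val (s.injective (e.trans a2.symm))])
    (fun k hk l => by
      rw [v k hk]
      interval_cases k
      exacts [congrArg Fin.val a0.symm, congrArg Fin.val a1.symm])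
  exact of_chk hc ht sG (fun k => (h k).trans (c2 k k.2).symm) _ c1

theorem cc_ord : orderOf cc = 11 :=
  haveI : Fact (Nat.Prime 11) := ⟨by norm_num⟩
  orderOf_eq_prime (by decide) (by decide)

theorem ext_c {u v d : Perm (Fin 13)} (hu : u * cc = d * u) (hv : v * cc = d * v) (h0 : u 0 = v 0)
    (h1 : u 11 = v 11) (h2 : u 12 = v 12) : u = v := by
  have a : ∀ n : ℕ, u ((cc ^ n) 0) = v ((cc ^ n) 0) := fun n => by
    induction n with
    | zero => exact h0
    | succ n ih =>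
      rw [pow_succ', Perm.mul_apply, ← Perm.mul_apply u, ← Perm.mul_apply v, hu, hv, Perm.mul_apply,
        Perm.mul_apply, ih]
  ext1 k
  rcases (by decide : ∀ k : Fin 13, k = 11 ∨ k = 12 ∨ ∃ n < 11, k = (cc ^ n) 0) k with
    rfl | rfl | ⟨n, -, rfl⟩
  exacts [h1, h2, a n]

theorem tt_mem {G : Subgroup (Perm (Fin 13))} (hA : G ≤ alternatingGroup _) (hc : cc ∈ G)
    {z : Perm (Fin 13)} (hz : z ∈ G) (hn : z * cc * z⁻¹ ∈ Subgroup.zpowers cc) (z1 : z 11 = 12)
    (z2 : z 12 = 11) : tt ∈ G := by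
  have f1 : ∀ n : ℕ, (cc ^ n) 11 = 11 := fun n => pow_apply_eq_self_of_apply_eq_self rfl n
  have f2 : ∀ n : ℕ, (cc ^ n) 12 = 12 := fun n => pow_apply_eq_self_of_apply_eq_self rfl n
  obtain ⟨r, -, hr⟩ := (by decide : ∀ k : Fin 13, k ≠ 11 → k ≠ 12 → ∃ n < 11, (cc ^ n) k = 0) (z 0)
    (fun e => by simpa using z.injective (e.trans z2.symm))
    (fun e => by simpa using z.injective (e.trans z1.symm))
  rw [mem_zpowers_iff_mem_range_orderOf, cc_ord] at hn
  obtain ⟨m, hm, e⟩ := Finset.mem_image.1 hn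
  obtain ⟨u, hu⟩ : ∃ u, u = cc ^ r * z := ⟨_, rfl⟩
  have uG : u ∈ G := hu ▸ mul_mem (pow_mem hc _) hz
  have e1 : u * cc * u⁻¹ = cc ^ m := by
    rw [hu, mul_inv_rev, show cc ^ r * z * cc * (z⁻¹ * (cc ^ r)⁻¹) = cc ^ r * (z * cc * z⁻¹) * (cc ^ r)⁻¹
      by group, ← e]; group
  have e2 : ∀ n : ℕ, u ^ n * cc = cc ^ m ^ n * u ^ n := fun n => by
    induction n with
    | zero => simp
    | succ n ih =>
      rw [pow_succ', mul_assoc, ih, pow_succ' m, pow_mul, ← e1, conj_pow]; group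
  have u0 : u 0 = 0 := by rw [hu, Perm.mul_apply, hr]
  have u1 : u 11 = 12 := by rw [hu, Perm.mul_apply, z1, f2]
  have u2 : u 12 = 11 := by rw [hu, Perm.mul_apply, z2, f1]
  have v0 : (u ^ 5) 0 = 0 := pow_apply_eq_self_of_apply_eq_self u0 5
  have v1 : (u ^ 5) 11 = 12 := by simp [pow_succ, u1, u2]
  have v2 : (u ^ 5) 12 = 11 := by simp [pow_succ, u1, u2]
  have e5 := e2 5
  rw [← pow_mod_orderOf cc, cc_ord] at e5
  have m0 : m ≠ 0 := by
    rintro rfl
    rw [pow_zero, mul_inv_eq_one, mul_eq_left] at e1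
    exact absurd e1 (by decide)
  rcases (by decide : ∀ m < 11, m ≠ 0 → m ^ 5 % 11 = 1 ∨ m ^ 5 % 11 = 10) m (Finset.mem_range.1 hm) m0
    with h | h <;> rw [h] at e5
  · have := hA (pow_mem uG 5)
    rw [ext_c (v := swap 11 12) e5 (by decide) v0 v1 v2, mem_alternatingGroup] at this
    exact absurd this (by decide)
  · exact ext_c (v := tt) e5 (by decide) v0 v1 v2 ▸ pow_mem uG 5

open MulAction H16 in
theorem alt_c {G : Subgroup (Perm (Fin 13))} (hA : G ≤ alternatingGroup _) (hc : cc ∈ G)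
    (hG : IsPreprimitive G (Fin 13)) : alternatingGroup _ ≤ G := by
  have : Fact (Nat.Prime 11) := ⟨by norm_num⟩
  have hk : IsMultiplyPretransitive G (Fin 13) 3 :=
    (mprim_of_prime_cycle hG this.out (by simp) (isCycle_of_prime_order' (cc_ord ▸ this.out)
      (by simp [cc_ord])) (by decide) hc).isMultiplyPretransitive
  let Γ : Finset (Fin 13) := {11, 12}
  let g' : G := ⟨cc, hc⟩
  have hord : orderOf g' = 11 := by rw [Subgroup.orderOf_mk, cc_ord]
  have hle : Subgroup.zpowers g' ≤ fixingSubgroup G (Γ : Set (Fin 13)) := by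
    rw [Subgroup.zpowers_le, mem_fixing]
    exact (by decide : ∀ x ∈ Γ, cc x = x)
  have hQ : H4.IsSylowIn 11 (Subgroup.zpowers g') (fixingSubgroup G (Γ : Set (Fin 13))) := by
    refine ⟨hle, IsPGroup.of_card (n := 1) (by rw [Nat.card_zpowers, hord, pow_one]), fun h => ?_⟩
    have := faithful_ofFixingSubgroup (G := G) (Γ : Set (Fin 13))
    apply not_sq_dvd_card (G := fixingSubgroup G (Γ : Set (Fin 13)))
      (α := SubMulAction.ofFixingSubgroup G (Γ : Set (Fin 13))) (p := 11)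
    · rw [card_ofFixingSubgroup, ← Finset.coe_compl, Set.ncard_coe_finset]; rfl
    · rw [← H4.card_mul_relIndex hle, Nat.card_zpowers, hord, pow_two]
      exact Nat.mul_dvd_mul_left 11 h
  obtain ⟨y, hy⟩ := mtrans_finset hk (by simp) Γ (by decide) (swap 11 12) (Equiv.swap _ _).injective.injOn
  obtain ⟨z, hz, hzy⟩ := witt_fixing hQ y (fun q hq x hx => by
    apply mem_fixing.1 (hle hq)
    rw [hy x hx]
    exact (by decide : ∀ x ∈ Γ, swap 11 12 x ∈ Γ) x hx)
  obtain ⟨m, hm⟩ := (Subgroup.mem_normalizer_iff.1 hz g').1 (Subgroup.mem_zpowers g')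
  have ht := tt_mem hA hc z.2 ⟨m, congrArg Subtype.val hm⟩
    ((hzy 11 (by decide)).trans (hy 11 (by decide))) ((hzy 12 (by decide)).trans (hy 12 (by decide)))
  obtain ⟨g, hg⟩ := mtrans_iff.1 hk ![0, 11, 12] ![11, 12, 0] (by decide) (by decide)
  obtain ⟨w, wG, hw⟩ := core hc ht g.2 (hg 0) (hg 1) (hg 2)
  exact alt_le_of_support_le_three hG wG (by rintro rfl; simp at hw) hw.le

end Cfsg.Agent.H23.A13
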