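import Mathlib
import Cfsg.Agent.H23.A13
import Cfsg.Agent.H20.Simple
import Cfsg.Agent.H16.Gleason

/-! Two elements of large prime orders of an alternating group generate an alternating group. -/

set_option autoImplicit false
set_option linter.unusedSectionVars false
set_option linter.unusedVariables false

namespace Cfsg.Agent.H23.AP
open Equiv Equiv.Perm MulAction Subgroup H16

section
variable {α : Type*} [Fintype α] [DecidableEq α]

theorem prim_of_cyc {G : Subgroup (Perm α)} [IsPretransitive G α] {y : Perm α} (hy : y ∈ G)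
    (c : y.IsCycle) (hq : y.support.card.Prime) (h : Fintype.card α < 2 * y.support.card) :
    IsPreprimitive G α := by
  have := isPretransitive_of_isCycle_mem c hy
  have e : Nat.card (SubMulAction.ofFixingSubgroup G (y.support : Set α)ᶜ) = y.support.card := by
    rw [card_ofFixingSubgroup, compl_compl, Set.ncard_coe_finset]
  have : IsPreprimitive (fixingSubgroup G (y.support : Set α)ᶜ)
      (SubMulAction.ofFixingSubgroup G (y.support : Set α)ᶜ) := IsPreprimitive.of_prime_card (e ▸ hq)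
  refine IsPreprimitive.of_card_lt 
    (f := SubMulAction.ofFixingSubgroup_equivariantMap G (y.support : Set α)ᶜ) ?_
  rw [Set.ncard_range_of_injective SubMulAction.ofFixingSubgroup_equivariantMap_injective, e,
    Nat.card_eq_fintype_card]
  exact h

theorem trans_of {G : Subgroup (Perm α)} {x y : Perm α} (hx : x ∈ G) (hy : y ∈ G)
    (hp : (orderOf x).Prime) (c : y.IsCycle) (h : Fintype.card α < orderOf x + y.support.card)
    (hs : ∀ a, x a ≠ a ∨ y a ≠ a) : IsPretransitive G α := by
  obtain ⟨o, ho, hc⟩ := c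
  have k : ∀ b, y b ≠ b → ∃ g : G, g • o = b := fun b hb =>
    let ⟨i, hi⟩ := hc hb; ⟨⟨y ^ i, zpow_mem hy i⟩, hi⟩
  have k' : ∀ a, ∃ g : G, g • o = a := fun a => by
    rcases hs a with e | e
    swap; · exact k a e
    have m : (x.cycleOf a).support.card ∈ x.cycleType := by
      rw [cycleType_def]
      exact Multiset.mem_map.2 ⟨_, cycleOf_mem_cycleFactorsFinset_iff.2 (mem_support.2 e), rfl⟩
    have m' := (hp.eq_one_or_self_of_dvd _ (dvd_of_mem_cycleType m)).resolve_left
      (one_lt_of_mem_cycleType m).ne'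
    obtain ⟨b, hb⟩ := Finset.inter_nonempty_of_card_lt_card_add_card (Finset.subset_univ
      (x.cycleOf a).support) (Finset.subset_univ y.support) (by rwa [m', Finset.card_univ])
    obtain ⟨b1, b2⟩ := Finset.mem_inter.1 hb
    obtain ⟨i, hi⟩ := (mem_support_cycleOf_iff.1 b1).1.symm
    obtain ⟨g, rfl⟩ := k b (mem_support.1 b2)
    exact ⟨⟨x ^ i, zpow_mem hx i⟩ * g, by rw [mul_smul]; exact hi⟩
  exact ⟨fun a b => by
    obtain ⟨g, rfl⟩ := k' a
    obtain ⟨h, rfl⟩ := k' b
    exact ⟨h * g⁻¹, by simp [mul_smul]⟩⟩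

end

theorem not_two_odd {G : Type*} [Group G] [Finite G] {S : Set G} (hS : closure S = ⊤)
    (ho : ∀ x ∈ S, Odd (orderOf x)) {k : ℕ} (hk : Nat.card G = 2 * k) (ok : Odd k) : False := by
  obtain ⟨P⟩ : Nonempty (Sylow 2 G) := inferInstance
  have cP : Nat.card P = 2 := by
    rw [P.card_eq_multiplicity, hk, Nat.factorization_mul two_ne_zero ok.pos.ne', Finsupp.add_apply,
      Nat.prime_two.factorization_self, Nat.factorization_eq_zero_of_not_dvd ok.not_two_dvd_nat]
    rfl
  have hm : (Nat.card G).minFac = 2 := by rw [Nat.minFac_eq_two_iff, hk]; exact dvd_mul_right _ _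
  have := (IsCyclic.isComplement' hm (isCyclic_of_prime_card cP)).symm.index_eq_card
  generalize hN : (MonoidHom.transferSylow P _).ker = N at this
  have n : N.Normal := hN ▸ inferInstance
  have : N = ⊤ := eq_top_iff.2 (hS ▸ (closure_le _).2 fun x hx => by
    obtain ⟨j, hj⟩ := ho x hx
    have a := pow_mem (N.pow_index_mem x) j
    rw [this, cP, ← pow_mul] at a
    have b : x = (x ^ (2 * j))⁻¹ := by rw [eq_inv_iff_mul_eq_one, ← pow_succ', ← hj, pow_orderOf_eq_one]
    exact b ▸ inv_mem a)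
  simp_all

theorem alt_idx {d : ℕ} (hd : 5 ≤ d) {K : Subgroup (Perm (Fin d))} (h : K ≤ alternatingGroup _)
    (h' : ¬ alternatingGroup _ ≤ K) : ∃ i, 2 * (Nat.card K * i) = d.factorial ∧ d.factorial ∣ i.factorial ∧
      i = (K.subgroupOf (alternatingGroup _)).index := by
  have : Nontrivial (Fin d) := Fin.nontrivial_iff_two_le.2 (by omega)
  have := alternatingGroup.isSimpleGroup (α := Fin d) (by simpa)
  have e := two_mul_nat_card_alternatingGroup (α := Fin d)
  rw [Nat.card_perm, Nat.card_fin] at e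
  refine ⟨_, ?_, e ▸ H20.simple_two_mul_card_dvd_factorial (by
    rw [alternatingGroup.isMulCommutative_iff_card_le_three]; simp; omega)
    (by rwa [Ne, subgroupOf_eq_top]), rfl⟩
  rw [← e, ← (K.subgroupOf (alternatingGroup _)).card_mul_index,
    Nat.card_congr (subgroupOfEquivOfLe h).toEquiv]

theorem iso_five' {G β : Type*} [Group G] [Finite β] [MulAction G β] [FaithfulSMul G β] (a : β)
    (h : Nat.card β = 6) (hK : Nat.card (stabilizer G a) = 60) :
    Nonempty (stabilizer G a ≃* alternatingGroup (Fin 5)) := by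
  have := faithful_ofStabilizer (G := G) a
  have c := card_ofStabilizer (G := G) a
  rw [h] at c
  let e := Finite.equivFinOfCardEq (n := 5) c
  let f := e.permCongrHom.toMonoidHom.comp (toPermHom (stabilizer G a) (SubMulAction.ofStabilizer G a))
  have fi : Function.Injective f := e.permCongrHom.injective.comp toPerm_injective
  have c2 := f.range.card_mul_index
  rw [← Nat.card_congr (MonoidHom.ofInjective fi).toEquiv, hK, Nat.card_perm, Nat.card_fin] at c2
  exact ⟨(MonoidHom.ofInjective fi).trans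
    (MulEquiv.subgroupCongr (eq_alternatingGroup_of_index_eq_two (by
      simp [Nat.factorial] at c2; omega)))⟩

theorem iso_five {G : Type*} [Group G] [Finite G] [IsSimpleGroup G] {K : Subgroup G} (h : K.index = 6)
    (hK : Nat.card K = 60) : Nonempty (K ≃* alternatingGroup (Fin 5)) := by
  have hf := H20.simple_toPermHom_injective (H := K) (by rintro rfl; simp at h)
  have : FaithfulSMul G (G ⧸ K) := ⟨fun e => hf (Equiv.ext e)⟩
  have := iso_five' (G := G) ((1 : G) : G ⧸ K) h (by rwa [stabilizer_quotient])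
  rwa [stabilizer_quotient] at this

theorem alt13 {K : Subgroup (Perm (Fin 13))} (hA : K ≤ alternatingGroup _) {x y : Perm (Fin 13)}
    (hx : x ∈ K) (hy : y ∈ K) (cx : x.IsCycle) (cy : y.IsCycle) (sx : x.support.card = 11)
    (sy : y.support.card = 13) : alternatingGroup _ ≤ K := by
  obtain ⟨s, hs⟩ := isConj_iff.1 ((isCycle_of_prime_order' (σ := A13.cc) (by norm_num [A13.cc_ord])
    (by simp [A13.cc_ord])).isConj cx (by rw [sx]; decide))
  let G := K.comap (MulAut.conj s).toMonoidHom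
  have mG : ∀ g, g ∈ G ↔ s * g * s⁻¹ ∈ K := fun g => Iff.rfl
  have y' : s⁻¹ * y * s⁻¹⁻¹ ∈ G := by rw [mG]; simpa [mul_assoc] using hy
  have : IsPretransitive G (Fin 13) := trans_of y' y' (by
      rw [cy.conj.orderOf, card_support_conj, sy]; norm_num) cy.conj
    (by rw [cy.conj.orderOf, card_support_conj, sy]; simp) fun a => .inl (mem_support.1
      ((Finset.card_eq_iff_eq_univ _).1 (card_support_conj.trans sy) ▸ Finset.mem_univ a))
  have := A13.alt_c (G := G) (fun g hg => by
      have := hA ((mG g).1 hg)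
      simpa [mul_comm (sign s), mul_assoc] using this) ((mG _).2 (hs ▸ hx))
    (IsPreprimitive.of_prime_card (by simp; norm_num))
  intro g hg
  have := (mG _).1 (this ((inferInstance : (alternatingGroup _).Normal).conj_mem g hg s⁻¹))
  simpa [mul_assoc] using this

theorem main {d p q : ℕ} {x y : Perm (Fin d)} (hp : p.Prime) (hq : q.Prime) (ox : orderOf x = p)
    (oy : orderOf y = q) (sx : sign x = 1) (sy : sign y = 1) (hs : ∀ a, x a ≠ a ∨ y a ≠ a)
    (hd : d ≤ 2 * p) (q5 : 5 ≤ q)
    (h : p + 3 ≤ q ∧ d < 2 * p ∨ p = 3 ∧ q = 5 ∨ p = 5 ∧ q = 7 ∨ p = 11 ∧ q = 13) :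
    ∃ e, 5 ≤ e ∧ Nonempty (closure ({x, y} : Set (Perm (Fin d))) ≃* alternatingGroup (Fin e)) := by
  obtain ⟨K, hK⟩ : ∃ K, K = closure ({x, y} : Set (Perm (Fin d))) := ⟨_, rfl⟩
  have xK : x ∈ K := hK ▸ subset_closure (by simp)
  have yK : y ∈ K := hK ▸ subset_closure (by simp)
  have KA : K ≤ alternatingGroup _ := hK ▸ (closure_le _).2 (by rintro _ (rfl | rfl) <;> assumption)
  have cy : y.IsCycle := isCycle_of_prime_order' (oy ▸ hq) (by simp; omega)
  have ty : y.support.card = q := cy.orderOf ▸ oy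
  have qd : q ≤ d := ty ▸ (Finset.card_le_univ _).trans (by simp)
  have tr : IsPretransitive K (Fin d) := trans_of xK yK (ox ▸ hp) cy (by simp; omega) hs
  have pr : IsPreprimitive K (Fin d) := prim_of_cyc yK cy (ty ▸ hq) (by simp; omega)
  have od : ∀ k, Nat.card K = 2 * k → Odd k → False := fun k a b => by
    subst hK
    refine not_two_odd closure_closure_coe_preimage (fun z hz => ?_) a b
    rw [← orderOf_coe]
    rcases hz with e | e <;> rw [show z.1 = _ from e]
    exacts [ox ▸ hp.odd_of_ne_two (by omega), oy ▸ hq.odd_of_ne_two (by omega)]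
  rw [← hK]
  by_cases hA : alternatingGroup _ ≤ K
  · exact ⟨d, by omega, ⟨MulEquiv.subgroupCongr (le_antisymm KA hA)⟩⟩
  obtain ⟨i, i1, i2, i3⟩ := alt_idx (by omega) KA hA
  have n1 : ¬ q + 3 ≤ d := fun e => hA (jordan_prime_cycle pr hq (by simpa) cy ty yK)
  by_cases e : d < 2 * p
  · have cx : x.IsCycle := isCycle_of_prime_order' (ox ▸ hp) (by simp; omega)
    have tx : x.support.card = p := cx.orderOf ▸ ox
    have n2 : ¬ p + 3 ≤ d := fun e => hA (jordan_prime_cycle pr hp (by simpa) cx tx xK)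
    rcases h with h | ⟨rfl, rfl⟩ | ⟨rfl, rfl⟩ | ⟨rfl, rfl⟩
    · omega
    · exact (hA (alt_le_of_support_le_three pr xK cx.ne_one tx.le)).elim
    · obtain rfl : d = 7 := by omega
      obtain ⟨k, hk⟩ := descFactorial_dvd_card
        (mprim_of_prime_cycle pr hp (by simp) cx tx xK).isMultiplyPretransitive (by simp)
      simp only [Nat.card_fin, Fintype.card_fin, Nat.descFactorial] at hk
      rw [hk] at i1 od
      have : k * i = 12 := by simp [Nat.factorial] at i1; nlinarith
      have : i ≤ 12 := Nat.le_of_dvd (by norm_num) (this ▸ dvd_mul_left _ _)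
      have : k = 1 := by interval_cases i <;> first | omega | exact absurd i2 (by decide)
      exact (od 105 (by omega) (by decide)).elim
    · obtain rfl : d = 13 := by omega
      exact (hA (alt13 KA xK yK cx cy tx ty)).elim
  obtain ⟨rfl, rfl, rfl⟩ : p = 3 ∧ q = 5 ∧ d = 6 := by omega
  obtain ⟨k, hk⟩ := descFactorial_dvd_card
    (mprim_of_prime_cycle pr hq (by simp) cy ty yK).isMultiplyPretransitive (by simp)
  simp only [Nat.card_fin, Fintype.card_fin, Nat.descFactorial] at hk
  rw [hk] at i1 od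
  have : k * i = 12 := by simp [Nat.factorial] at i1; nlinarith
  have : i ≤ 12 := Nat.le_of_dvd (by norm_num) (this ▸ dvd_mul_left _ _)
  have := alternatingGroup.isSimpleGroup (α := Fin 6) (by simp)
  obtain rfl | ⟨rfl, i6⟩ : k = 1 ∨ k = 2 ∧ i = 6 := by
    interval_cases i <;> first | omega | exact absurd i2 (by decide)
  · exact (od 15 (by omega) (by decide)).elim
  obtain ⟨f⟩ := iso_five (i3 ▸ i6) ((Nat.card_congr (subgroupOfEquivOfLe KA).toEquiv).trans hk)
  exact ⟨5, le_rfl, ⟨(subgroupOfEquivOfLe KA).symm.trans f⟩⟩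

theorem main' {m p q : ℕ} (hp : p.Prime) (hq : q.Prime) (hd : m ≤ 2 * p) (q5 : 5 ≤ q)
    (h : p + 3 ≤ q ∧ m < 2 * p ∨ p = 3 ∧ q = 5 ∨ p = 5 ∧ q = 7 ∨ p = 11 ∧ q = 13)
    (x y : alternatingGroup (Fin m)) (ox : orderOf x = p) (oy : orderOf y = q) : ∃ e, 5 ≤ e ∧
      Nonempty (closure ({x, y} : Set (alternatingGroup (Fin m))) ≃* alternatingGroup (Fin e)) := by
  let S := x.1.support ∪ y.1.support
  let e : Fin S.card ≃ {a // a ∈ S} := S.equivFin.symm
  let φ := extendDomainHom e
  have fi : Function.Injective φ := extendDomainHom_injective e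
  have ex : ∀ g : Perm (Fin m), g.support ⊆ S → ∃ g', φ g' = g := fun g hg => by
    have a : ∀ a, g a ∈ S ↔ a ∈ S := fun a => by
      by_cases c : g a = a
      · rw [c]
      · exact iff_of_true (hg (apply_mem_support.2 (mem_support.2 c))) (hg (mem_support.2 c))
    refine ⟨e.symm.permCongr (g.subtypePerm a), Equiv.ext fun b => ?_⟩
    by_cases c : b ∈ S
    · simp [φ, extendDomain_apply_subtype _ e c]
    · rw [extendDomainHom_apply, extendDomain_apply_not_subtype _ e c]
      exact (notMem_support.1 fun t => c (hg t)).symm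
  obtain ⟨x', hx⟩ := ex x Finset.subset_union_left
  obtain ⟨y', hy⟩ := ex y Finset.subset_union_right
  have c : S.card ≤ m := (Finset.card_le_univ _).trans (by simp)
  have ap : ∀ g a, g a = a → φ g (e a) = e a := fun g a h => by
    rw [extendDomainHom_apply, extendDomain_apply_image, h]
  obtain ⟨d, d5, ⟨f⟩⟩ := main (x := x') (y := y') hp hq
    (by rw [← orderOf_injective φ fi, hx, orderOf_coe, ox])
    (by rw [← orderOf_injective φ fi, hy, orderOf_coe, oy])
    ((sign_extendDomain x' e).symm.trans (congrArg sign hx ▸ x.2))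
    ((sign_extendDomain y' e).symm.trans (congrArg sign hy ▸ y.2)) (fun a => by
      rcases Finset.mem_union.1 (e a).2 with t | t
      exacts [.inl fun c => mem_support.1 t (hx ▸ ap _ _ c), .inr fun c => mem_support.1 t (hy ▸ ap _ _ c)])
    (by omega) q5 (by omega)
  refine ⟨d, d5, ⟨((equivMapOfInjective _ _ (alternatingGroup _).subtype_injective).trans
    ((MulEquiv.subgroupCongr ?_).trans (equivMapOfInjective _ _ fi).symm)).trans f⟩⟩
  simp [MonoidHom.map_closure, Set.image_pair, hx, hy]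

section
open Nat

theorem cb_le (n a : ℕ) (hn : 5 < n) (no : ∀ p : ℕ, p.Prime → n < p → p ≤ 2 * n → a ≤ p ∧ p ≤ a + 4) :
    centralBinom n ≤ (2 * n) ^ (sqrt (2 * n) + 5) * 4 ^ (2 * n / 3) := by
  have n2 : 1 ≤ 2 * n := by omega
  let f x := x ^ n.centralBinom.factorization x
  have fl : ∀ p, f p ≤ 2 * n := fun p => pow_factorization_choose_le (by omega)
  have f1 : ∀ p, ¬ p.Prime → f p = 1 := fun p h => by
    simp only [f, factorization_eq_zero_of_not_prime _ h, _root_.pow_zero]
  let A := Finset.Icc 1 (sqrt (2 * n)) ∪ Finset.Icc a (a + 4)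
  let S := {p ∈ Finset.range (2 * n / 3 + 1) | Nat.Prime p}
  have e : centralBinom n = ∏ p ∈ Finset.range (2 * n + 1), f p :=
    n.prod_pow_factorization_centralBinom.symm
  rw [e, ← Finset.prod_filter_mul_prod_filter_not _ (· ∈ A)]
  apply mul_le_mul'
  · refine (Finset.prod_le_prod' fun p _ => fl p).trans ?_
    rw [Finset.prod_const]
    refine pow_right_mono₀ n2 ((Finset.card_le_card (t := A) fun x hx => (Finset.mem_filter.1 hx).2).trans
      ((Finset.card_union_le _ _).trans ?_))
    simp only [card_Icc]; omega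
  · refine le_trans ?_ (primorial_le_four_pow (2 * n / 3))
    rw [← Finset.prod_filter_of_ne (p := (· ∈ S))]
    · refine (Finset.prod_le_prod' (g := fun p => p) fun p hp => ?_).trans
        (Finset.prod_le_prod_of_subset_of_one_le' (fun p hp => (Finset.mem_filter.1 hp).2)
          fun p hp _ => (Finset.mem_filter.1 hp).2.one_lt.le)
      simp only [Finset.mem_filter, A, S, Finset.mem_union, Finset.mem_Icc, not_or] at hp
      have := hp.2.2.one_lt
      refine (pow_right_mono₀ this.le ?_).trans (pow_one p).le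
      exact Nat.factorization_choose_le_one (sqrt_lt'.mp (by omega))
    · intro p hp h
      simp only [Finset.mem_filter, A, S, Finset.mem_union, Finset.mem_Icc, not_or,
        Finset.mem_range] at hp ⊢
      have pp : p.Prime := by_contra fun c => h (f1 p c)
      refine ⟨by_contra fun c => h ?_, pp⟩
      have := no p pp
      simp only [f]
      rw [factorization_centralBinom_of_two_mul_self_lt_three_mul (by omega) (by omega) (by omega),
        _root_.pow_zero]

theorem bert (n : ℕ) (hn : 1200 ≤ n) :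
    ∃ p q : ℕ, p.Prime ∧ q.Prime ∧ n < p ∧ p + 3 ≤ q ∧ q ≤ 2 * n := by
  by_contra! h
  obtain ⟨r, hr, r1, r2⟩ := exists_prime_lt_and_le_two_mul n (by omega)
  have a := cb_le n (r - 2) (by omega) fun p hp a b => by
    have := h p r hp hr a
    have := h r p hr hp r1
    omega
  have b := Nat.four_pow_lt_mul_centralBinom n (by omega)
  obtain ⟨s, hs⟩ : ∃ s, s = sqrt (2 * n) := ⟨_, rfl⟩
  have s1 : s * s ≤ 2 * n := hs ▸ sqrt_le _
  have s2 : 2 * n < (s + 1) * (s + 1) := hs ▸ lt_succ_sqrt _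
  have s3 : 48 ≤ s := by nlinarith
  have k : ∀ k, 12 ≤ k → (4 * k + 4) * (4 * k + 4) ≤ 2 ^ k := fun k hk => by
    induction k, hk using Nat.le_induction with
    | base => norm_num
    | succ k hk ih => rw [_root_.pow_succ]; nlinarith
  have c : 2 * n ≤ 2 ^ (s / 4) :=
    s2.le.trans ((Nat.mul_self_le_mul_self (by omega)).trans (k (s / 4) (by omega)))
  rw [← hs] at a
  have d : n * centralBinom n ≤ 2 ^ (s / 4 * (s + 6) + 2 * (2 * n / 3)) := by
    calc _ ≤ (2 * n) * ((2 * n) ^ (s + 5) * 4 ^ (2 * n / 3)) := Nat.mul_le_mul (by omega) a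
      _ = (2 * n) ^ (s + 6) * 4 ^ (2 * n / 3) := by ring
      _ ≤ (2 ^ (s / 4)) ^ (s + 6) * 4 ^ (2 * n / 3) := by gcongr
      _ = _ := by rw [_root_.pow_add 2, pow_mul, pow_mul]; norm_num
  have e := b.trans_le d
  rw [show 4 ^ n = 2 ^ (2 * n) by rw [pow_mul]; norm_num, Nat.pow_lt_pow_iff_right (by norm_num)] at e
  have f : 4 * (s / 4) ≤ s := Nat.mul_div_le _ _
  have g : 3 * (2 * n / 3) ≤ 2 * n := Nat.mul_div_le _ _
  have i : 4 * (s / 4 * (s + 6)) ≤ s * (s + 6) := by rw [← mul_assoc]; exact Nat.mul_le_mul_right _ f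
  nlinarith

theorem bert' (m : ℕ) (hm : 5 ≤ m) : ∃ p q : ℕ, p.Prime ∧ q.Prime ∧ m ≤ 2 * p ∧ p < q ∧ q ≤ m ∧ 5 ≤ q ∧
    (p + 3 ≤ q ∧ m < 2 * p ∨ p = 3 ∧ q = 5 ∨ p = 5 ∧ q = 7 ∨ p = 11 ∧ q = 13) := by
  by_cases h : 2400 ≤ m
  · obtain ⟨p, q, a, b, c⟩ := bert (m / 2) (by omega)
    exact ⟨p, q, a, b, by omega⟩
  have : m ≤ 6 ∨ (7 ≤ m ∧ m ≤ 10) ∨ (11 ≤ m ∧ m ≤ 13) ∨ (13 ≤ m ∧ m ≤ 22) ∨ (23 ≤ m ∧ m ≤ 37) ∨
    (37 ≤ m ∧ m ≤ 61) ∨ (59 ≤ m ∧ m ≤ 105) ∨ (101 ≤ m ∧ m ≤ 193) ∨ (191 ≤ m ∧ m ≤ 361) ∨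
    (353 ≤ m ∧ m ≤ 697) ∨ (691 ≤ m ∧ m ≤ 1365) ∨ 1361 ≤ m := by omega
  rcases this with e | e | e | e | e | e | e | e | e | e | e | e
  exacts [⟨3, 5, by norm_num, by norm_num, by omega⟩, ⟨5, 7, by norm_num, by norm_num, by omega⟩,
    ⟨7, 11, by norm_num, by norm_num, by omega⟩, ⟨11, 13, by norm_num, by norm_num, by omega⟩,
    ⟨19, 23, by norm_num, by norm_num, by omega⟩, ⟨31, 37, by norm_num, by norm_num, by omega⟩,
    ⟨53, 59, by norm_num, by norm_num, by omega⟩, ⟨97, 101, by norm_num, by norm_num, by omega⟩,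
    ⟨181, 191, by norm_num, by norm_num, by omega⟩, ⟨349, 353, by norm_num, by norm_num, by omega⟩,
    ⟨683, 691, by norm_num, by norm_num, by omega⟩, ⟨1327, 1361, by norm_num, by norm_num, by omega⟩]

end

end Cfsg.Agent.H23.AP
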