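import Cfsg.Agent.FT.BG01

/-! Baer's trick and the odd form of the `P × Q` lemma. -/

set_option autoImplicit false
set_option linter.unusedSectionVars false
set_option linter.unusedVariables false
set_option linter.style.haveILetI false

namespace Cfsg.Agent.H23

open Cfsg Cfsg.Agent.FT Subgroup
open scoped commutatorElement

variable {X : Type*} [Group X] {D : Subgroup X} {h : ℕ}

/-- `D` has class at most two and `x ↦ x ^ h` inverts squaring. -/
structure BaerData (D : Subgroup X) (h : ℕ) : Prop where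
  cl : ∀ x ∈ D, ∀ y ∈ D, ∀ z ∈ D, Commute ⁅x, y⁆ z
  half : ∀ x ∈ D, x ^ h * x ^ h = x

theorem baer_comm_mem {x y : X} (hx : x ∈ D) (hy : y ∈ D) : ⁅x, y⁆ ∈ D :=
  mul_mem (mul_mem (mul_mem hx hy) (inv_mem hx)) (inv_mem hy)

namespace BaerData

variable (b : BaerData D h) {x y z : X}
include b

theorem comm_mul_right (hx : x ∈ D) (hy : y ∈ D) (hz : z ∈ D) : ⁅x, y * z⁆ = ⁅x, y⁆ * ⁅x, z⁆ := by
  have e : ⁅x, y * z⁆ = ⁅x, y⁆ * (y * ⁅x, z⁆ * y⁻¹) := by simp only [commutatorElement_def]; group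
  rw [e, ← (b.cl x hx z hz y hy).eq, mul_inv_cancel_right]

theorem comm_mul_left (hx : x ∈ D) (hy : y ∈ D) (hz : z ∈ D) : ⁅x * y, z⁆ = ⁅y, z⁆ * ⁅x, z⁆ := by
  have e : ⁅x * y, z⁆ = (x * ⁅y, z⁆ * x⁻¹) * ⁅x, z⁆ := by simp only [commutatorElement_def]; group
  rw [e, ← (b.cl y hy z hz x hx).eq, mul_inv_cancel_right]

theorem clp (hx : x ∈ D) (hy : y ∈ D) (hz : z ∈ D) : Commute (⁅x, y⁆ ^ h) z := (b.cl x hx y hy z hz).pow_left h

theorem add_assoc' (hx : x ∈ D) (hy : y ∈ D) (hz : z ∈ D) :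
    x * y * ⁅y, x⁆ ^ h * z * ⁅z, x * y * ⁅y, x⁆ ^ h⁆ ^ h = x * (y * z * ⁅z, y⁆ ^ h) * ⁅y * z * ⁅z, y⁆ ^ h, x⁆ ^ h := by
  have m1 := baer_comm_mem hy hx
  have m2 := baer_comm_mem hz hx
  have m3 := baer_comm_mem hz hy
  rw [b.comm_mul_right hz (mul_mem hx hy) (pow_mem m1 h), b.comm_mul_right hz hx hy,
    (commutatorElement_eq_one_iff_commute.2 (b.clp hy hx hz).symm), mul_one,
    b.comm_mul_left (mul_mem hy hz) (pow_mem m3 h) hx, (commutatorElement_eq_one_iff_commute.2 (b.clp hz hy hx)),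
    one_mul, b.comm_mul_left hy hz hx, (b.cl z hz x hx _ m3).mul_pow, (b.cl z hz x hx _ m1).mul_pow]
  have c1 := (b.clp hy hx hz).eq
  have c2 := (b.clp hy hx (pow_mem m2 h)).eq
  have c3 := (b.clp hy hx (pow_mem m3 h)).eq
  have c4 := (b.clp hz hx (pow_mem m3 h)).eq
  generalize ⁅y, x⁆ ^ h = a at *
  generalize ⁅z, x⁆ ^ h = c at *
  generalize ⁅z, y⁆ ^ h = d at *
  calc x * y * a * z * (c * d) = x * y * (a * z) * (c * d) := by group
    _ = x * y * z * (a * d) * c := by rw [c1, c4]; group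
    _ = x * y * z * d * (a * c) := by rw [c3]; group
    _ = _ := by rw [c2]; group

theorem add_comm' (hx : x ∈ D) (hy : y ∈ D) : x * y * ⁅y, x⁆ ^ h = y * x * ⁅x, y⁆ ^ h := by
  have m1 := baer_comm_mem hy hx
  have e : y * x = x * y * ⁅y, x⁆ := by
    rw [← (b.cl y hy x hx _ (mul_mem hx hy)).eq, commutatorElement_def]; group
  rw [e, ← commutatorElement_inv y x, inv_pow]
  nth_rewrite 2 [← b.half _ m1]
  group

end BaerData

/-- the Baer group. -/
def Baer (b : BaerData D h) : Type _ := D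

instance (b : BaerData D h) : Zero (Baer b) := ⟨(1 : D)⟩
instance (b : BaerData D h) : Add (Baer b) :=
  ⟨fun x y : D => (⟨x * y * ⁅(y : X), (x : X)⁆ ^ h, mul_mem (mul_mem x.2 y.2) (pow_mem (baer_comm_mem y.2 x.2) h)⟩ : D)⟩
instance (b : BaerData D h) : Neg (Baer b) := ⟨fun x : D => (x⁻¹ : D)⟩

/-- the underlying element. -/
def Baer.val {b : BaerData D h} (x : Baer b) : X := Subtype.val x

theorem Baer.mem {b : BaerData D h} (x : Baer b) : x.val ∈ D := Subtype.prop x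
theorem Baer.ext {b : BaerData D h} {x y : Baer b} (e : x.val = y.val) : x = y := Subtype.ext e
theorem Baer.val_add {b : BaerData D h} (x y : Baer b) : (x + y).val = x.val * y.val * ⁅y.val, x.val⁆ ^ h := rfl
theorem Baer.val_zero {b : BaerData D h} : (0 : Baer b).val = 1 := rfl
theorem Baer.val_neg {b : BaerData D h} (x : Baer b) : (-x).val = x.val⁻¹ := rfl

instance (b : BaerData D h) : AddCommGroup (Baer b) where
  add_assoc x y z := Baer.ext (b.add_assoc' x.mem y.mem z.mem)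
  zero_add x := Baer.ext (by simp [Baer.val_add, Baer.val_zero])
  add_zero x := Baer.ext (by simp [Baer.val_add, Baer.val_zero])
  neg_add_cancel x := Baer.ext (by simp [Baer.val_add, Baer.val_zero, Baer.val_neg, commutatorElement_def])
  add_comm x y := Baer.ext (b.add_comm' x.mem y.mem)
  nsmul := nsmulRec
  zsmul := zsmulRec

instance [Finite X] (b : BaerData D h) : Finite (Baer b) := inferInstanceAs (Finite D)

/-- conjugation on the Baer group. -/
def Baer.conj (b : BaerData D h) (g : normalizer (D : Set X)) : Baer b →+ Baer b :=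
  AddMonoidHom.mk' (fun x => (⟨g * x.val * (g : X)⁻¹, (mem_normalizer_iff.1 g.2 _).1 x.mem⟩ : D)) fun x y =>
    Baer.ext (by
      change (g : X) * (x + y).val * (g : X)⁻¹ = (g * x.val * (g : X)⁻¹) * (g * y.val * (g : X)⁻¹) *
        ⁅g * y.val * (g : X)⁻¹, g * x.val * (g : X)⁻¹⁆ ^ h
      rw [Baer.val_add, ← conjugate_commutatorElement, conj_pow]; group)

theorem Baer.val_conj (b : BaerData D h) (g : normalizer (D : Set X)) (x : Baer b) :
    (Baer.conj b g x).val = g * x.val * (g : X)⁻¹ := rfl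

theorem Baer.conj_mul (b : BaerData D h) (g k : normalizer (D : Set X)) (x : Baer b) :
    Baer.conj b (g * k) x = Baer.conj b g (Baer.conj b k x) :=
  Baer.ext (by simp only [Baer.val_conj, Subgroup.coe_mul]; group)

theorem Baer.conj_one (b : BaerData D h) (x : Baer b) : Baer.conj b 1 x = x :=
  Baer.ext (by simp [Baer.val_conj])

variable [Finite X] {p : ℕ} {P Q U : Subgroup X}

theorem baer_core (hp : p.Prime) (b : BaerData D h) (hD : PGrp p D) (hP : PGrp p P) (hQ : PiGrp {p}ᶜ Q)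
    (hPQ : P ≤ N(Q)) (hPD : P ≤ N(D)) (hQD : Q ≤ N(D)) (hC : D ⊓ C(P) ≤ C(Q)) : Q ≤ C(D) := by
  classical
  haveI := Fact.mk hp
  haveI := Fintype.ofFinite Q
  let T : Baer b →+ Baer b := ∑ k : Q, Baer.conj b (inclusion hQD k)
  have hT : ∀ v, T v = ∑ k : Q, Baer.conj b (inclusion hQD k) v := fun v => AddMonoidHom.finsetSum_apply _ _ _
  have hTP : ∀ (e : P) v, T (Baer.conj b (inclusion hPD e) v) = Baer.conj b (inclusion hPD e) (T v) := by
    intro e v
    rw [hT, hT, map_sum]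
    refine (Fintype.sum_equiv (Q.normalizerMonoidHom ⟨e, hPQ e.2⟩).toEquiv _ _ fun k => ?_).symm
    refine Baer.ext ?_
    simp only [Baer.val_conj, coe_inclusion]
    change _ = ((e : X) * k * (e : X)⁻¹) * _ * ((e : X) * k * (e : X)⁻¹)⁻¹
    group
  letI : MulAction P T.ker :=
    { smul := fun e v => ⟨Baer.conj b (inclusion hPD e) v, by
        rw [AddMonoidHom.mem_ker, hTP, (AddMonoidHom.mem_ker).1 v.2, map_zero]⟩
      one_smul := fun v => Subtype.ext (Baer.conj_one b _)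
      mul_smul := fun e f v => Subtype.ext (Baer.conj_mul b (inclusion hPD e) (inclusion hPD f) _) }
  have hcard : Nat.card (Baer b) = #D := rfl
  have hker : T.ker = ⊥ := by
    by_contra hne
    have h1 : p ∣ Nat.card T.ker := by
      obtain ⟨n, hn⟩ := IsPGroup.iff_card.1 hD.isPGroup
      have h2 : Nat.card T.ker ∣ p ^ n := hn ▸ T.ker.card_addSubgroup_dvd_card
      obtain ⟨m, -, hm⟩ := (Nat.dvd_prime_pow hp).1 h2
      rcases m with _ | m
      · exact (hne (AddSubgroup.card_eq_one.1 hm)).elim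
      · rw [hm]; exact dvd_pow_self p (by omega)
    obtain ⟨v, hv, hv0⟩ := hP.isPGroup.exists_fixed_point_of_prime_dvd_card_of_fixed_point T.ker h1
      (a := 0) (fun e => Subtype.ext (map_zero _))
    have h3 : v.1.val ∈ C(Q) := hC ⟨v.1.mem, mem_cen.2 fun e he => by
      have := congrArg (fun w : T.ker => w.1.val) (hv ⟨e, he⟩)
      exact mul_inv_eq_iff_eq_mul.1 this⟩
    have h4 : (#Q) • v.1 = 0 := by
      have := (AddMonoidHom.mem_ker).1 v.2
      rw [hT, Finset.sum_congr rfl (g := fun _ => v.1) fun k _ => Baer.ext (by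
        rw [Baer.val_conj, coe_inclusion, mem_cen.1 h3 k k.2, mul_inv_cancel_right])] at this
      simpa using this
    have h5 : addOrderOf v.1 ∣ Nat.gcd #D #Q :=
      Nat.dvd_gcd (hcard ▸ addOrderOf_dvd_natCard v.1) (addOrderOf_dvd_of_nsmul_eq_zero h4)
    rw [(hD.cop hQ : Nat.Coprime _ _), Nat.dvd_one, AddMonoid.addOrderOf_eq_one_iff] at h5
    exact hv0 (Subtype.ext h5.symm)
  intro k hk
  refine mem_cen.2 fun x hx => ?_
  let v : Baer b := (⟨x, hx⟩ : D)
  have : Baer.conj b (inclusion hQD ⟨k, hk⟩) v - v ∈ T.ker := by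
    rw [AddMonoidHom.mem_ker, map_sub, sub_eq_zero, hT, hT]
    refine Fintype.sum_equiv (Equiv.mulRight ⟨k, hk⟩) _ _ fun l => ?_
    rw [← Baer.conj_mul]; rfl
  rw [hker, AddSubgroup.mem_bot, sub_eq_zero] at this
  exact (mul_inv_eq_iff_eq_mul.1 (congrArg Baer.val this)).symm

/-- the `P × Q` lemma for odd `p`: `P` need only normalise `Q`. -/
theorem p_norm_q (hp : p.Prime) (hp2 : p ≠ 2) (hP : PGrp p P) (hU : PGrp p U) (hQ : PiGrp {p}ᶜ Q)
    (hPQ : P ≤ N(Q)) (hPU : P ≤ N(U)) (hQU : Q ≤ N(U)) (hC : ∀ x ∈ U ⊓ C(P), x ^ p = 1 → x ∈ C(Q)) :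
    Q ≤ C(U) := by
  have ho : Odd #U := by
    haveI := Fact.mk hp
    obtain ⟨n, hn⟩ := IsPGroup.iff_card.1 hU.isPGroup
    rw [hn]; exact (hp.odd_of_ne_two hp2).pow
  obtain ⟨D, h1, h2, h3, h4, -, h5⟩ := critical_odd hU ho
  obtain ⟨m, hm⟩ := hp.odd_of_ne_two hp2
  have b : BaerData D (m + 1) := ⟨fun x hx y hy z hz =>
    (mem_cen.1 (h4 (commutator_mem_commutator hx (h1 hy))).2 z hz).symm, fun x hx => by
      rw [← pow_add, show m + 1 + (m + 1) = p + 1 by omega, pow_succ, h3 x hx, one_mul]⟩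
  exact h5 Q hQU hQ (baer_core hp b (hU.mono h1) hP hQ hPQ (hPU.trans h2) (hQU.trans h2)
    fun x hx => hC x ⟨h1 hx.1, hx.2⟩ (h3 x hx.1))

end Cfsg.Agent.H23
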