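import Mathlib
import Cfsg.Agent.H20.Count
/-! Fixed points on cosets. -/
set_option autoImplicit false
namespace Cfsg.Agent.H23
open Subgroup MulAction
variable {G : Type*} [Group G]

theorem smul_coe_eq_iff (H : Subgroup G) (x g : G) :
    x • (g : G ⧸ H) = g ↔ g⁻¹ * x * g ∈ H := by
  rw [MulAction.Quotient.smul_coe, smul_eq_mul, eq_comm, QuotientGroup.eq, mul_assoc]

theorem card_conj_mem_eq_fixed (H : Subgroup G) (x : G) :
    Nat.card {g : G // g⁻¹ * x * g ∈ H} = Nat.card (fixedBy (G ⧸ H) x) * Nat.card H := by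
  rw [← Nat.card_prod]
  refine (Nat.card_congr (Equiv.ofBijective
    (fun q : fixedBy (G ⧸ H) x × H => (⟨q.1.1.out * q.2, ?_⟩ : {g : G // g⁻¹ * x * g ∈ H}))
    ⟨?_, ?_⟩)).symm
  · have h1 : q.1.1.out⁻¹ * x * q.1.1.out ∈ H := by
      rw [← smul_coe_eq_iff, QuotientGroup.out_eq']; exact q.1.2
    have := H.mul_mem (H.mul_mem (H.inv_mem q.2.2) h1) q.2.2
    simpa [mul_assoc] using this
  · rintro ⟨⟨a, ha⟩, h⟩ ⟨⟨b, hb⟩, k⟩ e
    have e' : a.out * h = b.out * k := congrArg Subtype.val e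
    have hab : a = b := by
      rw [← a.out_eq, ← b.out_eq]
      apply QuotientGroup.eq.mpr
      have : a.out⁻¹ * b.out = h * (k : G)⁻¹ := by
        rw [eq_mul_inv_of_mul_eq e'.symm]; group
      rw [this]; exact H.mul_mem h.2 (H.inv_mem k.2)
    subst hab
    have : h = k := Subtype.ext (mul_left_cancel e')
    rw [this]
  · rintro ⟨g, hg⟩
    refine ⟨⟨⟨(g : G ⧸ H), (smul_coe_eq_iff H x g).mpr hg⟩, ⟨(g : G ⧸ H).out⁻¹ * g, ?_⟩⟩, ?_⟩
    · rw [← QuotientGroup.eq, QuotientGroup.out_eq']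
    · apply Subtype.ext; simp

theorem card_conj_mem_eq_cent (S : Set G) (x : G) :
    Nat.card {g : G // g⁻¹ * x * g ∈ S} =
      Nat.card {g : G // IsConj x g ∧ g ∈ S} * Nat.card (centralizer ({x} : Set G)) := by
  rw [← Nat.card_prod]
  have hc : ∀ y : {g : G // IsConj x g ∧ g ∈ S}, ∃ c : G, c⁻¹ * x * c = y := fun y => by
    obtain ⟨c, hc⟩ := isConj_iff.mp y.2.1
    exact ⟨c⁻¹, by simpa using hc⟩
  choose r hr using hc
  refine (Nat.card_congr (Equiv.ofBijective
    (fun q : {g : G // IsConj x g ∧ g ∈ S} × centralizer ({x} : Set G) =>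
      (⟨q.2 * r q.1, ?_⟩ : {g : G // g⁻¹ * x * g ∈ S})) ⟨?_, ?_⟩)).symm
  · have h := mem_centralizer_singleton_iff.mp q.2.2
    have : ((q.2 : G) * r q.1)⁻¹ * x * (q.2 * r q.1) = q.1 := by
      rw [← hr q.1, mul_inv_rev, mul_assoc, mul_assoc, ← mul_assoc x, ← h]; group
    rw [this]; exact q.1.2.2
  · rintro ⟨a, h⟩ ⟨b, k⟩ e
    have e' : (h : G) * r a = k * r b := congrArg Subtype.val e
    have key : ∀ (a : {g : G // IsConj x g ∧ g ∈ S}) (h : centralizer ({x} : Set G)),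
        ((h : G) * r a)⁻¹ * x * (h * r a) = a := fun a h => by
      rw [← hr a, mul_inv_rev, mul_assoc, mul_assoc, ← mul_assoc x,
        ← mem_centralizer_singleton_iff.mp h.2]; group
    have hab : a = b := Subtype.ext (by rw [← key a h, e', key])
    subst hab
    have : h = k := Subtype.ext (mul_right_cancel e')
    rw [this]
  · rintro ⟨g, hg⟩
    let y : {g : G // IsConj x g ∧ g ∈ S} := ⟨g⁻¹ * x * g, isConj_iff.mpr ⟨g⁻¹, by simp⟩, hg⟩
    refine ⟨⟨y, ⟨g * (r y)⁻¹, mem_centralizer_singleton_iff.mpr ?_⟩⟩, ?_⟩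
    · have : (r y)⁻¹ * x * r y = g⁻¹ * x * g := hr y
      calc g * (r y)⁻¹ * x = g * ((r y)⁻¹ * x * r y) * (r y)⁻¹ := by group
        _ = x * (g * (r y)⁻¹) := by rw [this]; group
    · apply Subtype.ext; simp

theorem card_fixed_mul_class [Finite G] (H : Subgroup G) (x : G) :
    Nat.card (fixedBy (G ⧸ H) x) * Nat.card {g : G // IsConj x g} =
      H.index * Nat.card {g : G // IsConj x g ∧ g ∈ H} := by
  have h1 := card_conj_mem_eq_fixed H x
  have h2 := card_conj_mem_eq_cent (H : Set G) x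
  have h3 := H20.card_isConj_mul_card_cent x
  have h4 := H.index_mul_card
  have h5 : Nat.card (fixedBy (G ⧸ H) x) * Nat.card H =
      Nat.card {g : G // IsConj x g ∧ g ∈ H} * Nat.card (centralizer ({x} : Set G)) :=
    h1.symm.trans h2
  apply Nat.eq_of_mul_eq_mul_right (Nat.card_pos (α := H))
  calc _ = (Nat.card (fixedBy (G ⧸ H) x) * Nat.card H) * Nat.card {g : G // IsConj x g} := by ring
    _ = Nat.card {g : G // IsConj x g ∧ g ∈ H} * (Nat.card {g : G // IsConj x g} *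
        Nat.card (centralizer ({x} : Set G))) := by rw [h5]; ring
    _ = _ := by rw [h3, ← h4]; ring

end Cfsg.Agent.H23
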