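import Mathlib
import Cfsg.Agent.L1.Se0

/-! The centraliser of an element of order four in the `M₁₂`-like configuration. -/

set_option autoImplicit false
set_option linter.unusedVariables false

namespace Cfsg.Agent.L1Se

open Subgroup Equiv

universe u

theorem pB2b_s3 : ∀ x : Perm (Fin 3), x ^ 4 = 1 → x ^ 2 = 1 := by decide +kernel
theorem pB2b_s5 : ∀ x : Perm (Fin 5), Perm.sign x = 1 → x ^ 4 = 1 → x ^ 2 = 1 := by decide +kernel
theorem pB2b_c3 : ∀ x : Perm (Fin 3), x * zE.1 = zE.1 * x → ∃ i : Fin 3, x = zE.1 ^ i.val := by decide +kernel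
theorem pB2b_c5 : ∀ x : Perm (Fin 5), x * (tE * uE).2 = (tE * uE).2 * x → ∃ i : Fin 4, x = (tE * uE).2 ^ i.val := by
  decide +kernel
theorem pB2b_w : zE ^ 3 = 1 ∧ zE ≠ 1 ∧ (tE * uE) ^ 4 = 1 ∧ (tE * uE) * (tE * uE) = eB ∧ eB ≠ 1 ∧ eE * eE = 1 ∧
    eE * zE * eE⁻¹ = zE⁻¹ ∧ zE * (tE * uE) = (tE * uE) * zE ∧ tE * (tE * uE) * tE⁻¹ = (tE * uE)⁻¹ ∧
    tE * zE * tE⁻¹ = zE ∧ tE * tE = 1 ∧ zE.2 = 1 ∧ (tE * uE).1 = 1 := by
  refine ⟨?_, ?_, ?_, ?_, ?_, ?_, ?_, ?_, ?_, ?_, ?_, ?_, ?_⟩ <;> decide +kernel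

theorem pB2b_quo {Z : Type*} [Group Z] {z a : Z} (N : Subgroup Z) [N.Normal] (z3 : z ^ 3 = 1) (hz : z ∉ N)
    (a4 : a ^ 4 = 1) (ha : a ^ 2 * z * (a ^ 2)⁻¹ = z⁻¹) (h : ∀ x : Z ⧸ N, x ^ 4 = 1 → x ^ 2 = 1) : False := by
  have e1 : ((a : Z ⧸ N)) ^ 2 = 1 := h _ (by rw [← QuotientGroup.mk_pow, a4, QuotientGroup.mk_one])
  have e2 := congrArg (QuotientGroup.mk (s := N)) ha
  simp only [QuotientGroup.mk_mul, QuotientGroup.mk_inv, QuotientGroup.mk_pow, e1, one_mul, inv_one, mul_one] at e2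
  have e3 : ((z : Z ⧸ N)) ^ 3 = 1 := by rw [← QuotientGroup.mk_pow, z3, QuotientGroup.mk_one]
  apply hz
  rw [← QuotientGroup.eq_one_iff]
  rw [pow_succ, pow_two, eq_inv_iff_mul_eq_one.1 e2, one_mul] at e3
  exact e3

theorem pB2b_abs (t : T31.{u}) (l : L27.{u}) {Z : Type u} [Group Z] [Finite Z] (θ : Z →* Z) (z a f : Z)
    (hθ : Function.Injective θ) (z3 : z ^ 3 = 1) (z1 : z ≠ 1) (hc : ∀ g : Z, g * z = z * g → g ∈ zpowers z)
    (a4 : a ^ 4 = 1) (ha : a ^ 2 * z * (a ^ 2)⁻¹ = z⁻¹) (ff : f * f = 1) (fa : Commute f (a ^ 2))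
    (fn : f ∉ zpowers a) (tz : θ z = z) (ta : θ a = a⁻¹) (tf : θ f = a * f * a⁻¹) : False := by
  haveI : Fact (Nat.Prime 3) := ⟨Nat.prime_three⟩
  haveI : Fact (Nat.Prime 2) := ⟨Nat.prime_two⟩
  have zo : orderOf z = 3 := orderOf_eq_prime z3 z1
  have hC : centralizer (zpowers z : Set Z) = zpowers z := by
    refine le_antisymm (fun g hg => hc g (mem_centralizer_iff.1 hg z (mem_zpowers z)).symm) ?_
    rintro _ ⟨n, rfl⟩
    rw [mem_centralizer_iff]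
    rintro _ ⟨m, rfl⟩
    exact (Commute.zpow_zpow_self z m n).eq
  rcases t Z (zpowers z) (by rw [Nat.card_zpowers, zo]) hC with ⟨N, hN, -, h3, hq⟩ | ⟨N, hN, -, h2, ⟨e⟩⟩ | ⟨⟨e⟩⟩
  · refine pB2b_quo N z3 (fun hz => ?_) a4 ha fun x hx => ?_
    · have := N.orderOf_dvd_natCard hz
      rw [zo] at this
      exact absurd (Nat.Coprime.eq_one_of_dvd h3.symm this) (by norm_num)
    · rcases hq with hq | ⟨⟨e⟩⟩
      · have := pow_card_eq_one' (x := x)
        rw [hq] at this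
        rw [pow_succ, this, one_mul] at hx
        rw [hx, one_pow]
      · apply e.injective
        rw [map_pow, map_one]
        exact pB2b_s3 _ (by rw [← map_pow, hx, map_one])
  · refine pB2b_quo N z3 (fun hz => z1 ?_) a4 ha fun x hx => ?_
    · rw [pow_succ, h2 z hz, one_mul] at z3; exact z3
    · apply e.injective
      rw [map_pow, map_one]
      have e4 : (e x) ^ 4 = 1 := by rw [← map_pow, hx, map_one]
      exact Subtype.ext (pB2b_s5 _ (Perm.mem_alternatingGroup.1 (e x).2) (congrArg Subtype.val e4))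
  · refine l Z e θ z a f hθ zo ?_ ha ff fa fn tz ta tf
    refine orderOf_eq_prime_pow (p := 2) (n := 1) (fun h2 => z1 ?_) a4
    rw [pow_one] at h2
    rw [h2, one_mul, inv_one, mul_one] at ha
    rw [pow_succ, pow_two, eq_inv_iff_mul_eq_one.1 ha, one_mul] at z3
    exact z3

variable {G : Type u} [Group G] [Finite G] {ε : W →* G} {σ : G}

theorem pB2b (t : T31.{u}) (l : L27.{u}) (h : SA ε σ eB) {a k : G} (hf : AF ε a k) : False := by
  obtain ⟨w1, w2, w3, w4, w5, w6, w7, w8, w9, w10, w11, w12, w13⟩ := pB2b_w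
  obtain ⟨ab, aa, ta, fb, ff, fe, tf⟩ := hf
  have b4 : ε (tE * uE) ^ 4 = 1 := by rw [← map_pow, w3, map_one]
  have bb : ε (tE * uE) * ε (tE * uE) = ε eB := by rw [← map_mul, w4]
  have z3 : ε zE ^ 3 = 1 := by rw [← map_pow, w1, map_one]
  have zb : ε zE * ε (tE * uE) = ε (tE * uE) * ε zE := by rw [← map_mul, w8, map_mul]
  have tb : ε tE * ε (tE * uE) * (ε tE)⁻¹ = (ε (tE * uE))⁻¹ := by
    rw [← map_inv, ← map_mul, ← map_mul, w9, map_inv]
  have tz : ε tE * ε zE * (ε tE)⁻¹ = ε zE := by rw [← map_inv, ← map_mul, ← map_mul, w10]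
  have ez : ε eE * ε zE * (ε eE)⁻¹ = (ε zE)⁻¹ := by rw [← map_inv, ← map_mul, ← map_mul, w7, map_inv]
  have tt : ε tE * ε tE = 1 := by rw [← map_mul, w11, map_one]
  have ee : ε eE * ε eE = 1 := by rw [← map_mul, w6, map_one]
  have z1 : ε zE ≠ 1 := fun e => w2 (h.inj (by rw [e, map_one]))
  have e1 : ε eB ≠ 1 := fun e => w5 (h.inj (by rw [e, map_one]))
  have cz : ∀ g, g * ε zE = ε zE * g → g * ε (tE * uE) = ε (tE * uE) * g →
      ∃ i j : ℕ, g = ε zE ^ i * ε (tE * uE) ^ j := by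
    intro g h1 h2
    obtain ⟨w, rfl⟩ : g ∈ ε.range := by
      rw [h.rng]
      refine centralizer_le_normalizer _ ?_
      rw [mem_centralizer_iff]
      rintro _ ⟨n, rfl⟩
      exact (Commute.zpow_left (Eq.symm h1) n).eq
    rw [← map_mul, ← map_mul] at h1 h2
    obtain ⟨i, hi⟩ := pB2b_c3 w.1 (congrArg Prod.fst (h.inj h1))
    obtain ⟨j, hj⟩ := pB2b_c5 w.2 (congrArg Prod.snd (h.inj h2))
    refine ⟨i, j, ?_⟩
    rw [← map_pow, ← map_pow, ← map_mul]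
    congr 1
    refine Prod.ext ?_ ?_
    · rw [Prod.fst_mul, Prod.pow_fst, Prod.pow_fst, w13, one_pow, mul_one, ← hi]
    · rw [Prod.snd_mul, Prod.pow_snd, Prod.pow_snd, w12, one_pow, one_mul, ← hj]
  generalize ε (tE * uE) = b at *
  generalize ε zE = z at *
  generalize ε tE = τ at *
  generalize ε eE = e at *
  generalize ε eB = e' at *
  have p4 : ∀ x ∈ zpowers b, x ^ 4 = 1 := by
    rintro _ ⟨n, rfl⟩
    show (b ^ n) ^ 4 = 1
    rw [← zpow_natCast, ← zpow_mul, mul_comm, zpow_mul, zpow_natCast, b4, one_zpow]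
  have pc : ∀ x ∈ zpowers b, ∀ g, Commute g b → Commute g x := by
    rintro _ ⟨n, rfl⟩ g hg
    exact hg.zpow_right n
  have pt : ∀ x ∈ zpowers b, τ * x * τ⁻¹ ∈ zpowers b := by
    rintro _ ⟨n, rfl⟩
    show τ * b ^ n * τ⁻¹ ∈ _
    rw [← conj_zpow, tb]
    exact zpow_mem (inv_mem (mem_zpowers b)) n
  let C : Subgroup G := centralizer {b}
  have mC : ∀ {g}, g ∈ C ↔ Commute g b := mem_centralizer_singleton_iff
  let B : Subgroup C := (zpowers b).subgroupOf C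
  haveI : B.Normal := ⟨fun x hx g => by
    rw [mem_subgroupOf] at hx ⊢
    have := (pc _ hx g (mC.1 g.2)).eq
    simp only [coe_mul, InvMemClass.coe_inv]
    rw [this, mul_inv_cancel_right]; exact hx⟩
  have tC : ∀ g ∈ C, τ * g * τ⁻¹ ∈ C := fun g hg => by
    rw [mC] at hg ⊢
    have h1 : Commute (τ * g * τ⁻¹) (τ * b * τ⁻¹) := hg.map (MulAut.conj τ)
    rw [tb] at h1
    exact Commute.inv_right_iff.1 h1
  let θ0 : C →* C := ((MulAut.conj τ).toMonoidHom.comp C.subtype).codRestrict C fun g => tC g g.2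
  have θv : ∀ g : C, (θ0 g : G) = τ * g * τ⁻¹ := fun g => rfl
  let θ : C ⧸ B →* C ⧸ B := QuotientGroup.map B B θ0 fun x hx => pt _ hx
  have eqv : ∀ x y : C, (x : G) * (y : G)⁻¹ ∈ zpowers b → (x : C ⧸ B) = y := fun x y hxy => by
    rw [QuotientGroup.eq_iff_div_mem, div_eq_mul_inv]; exact hxy
  have eqv' : ∀ x y : C, (x : C ⧸ B) = y → (x : G) * (y : G)⁻¹ ∈ zpowers b := fun x y hxy => by
    rw [QuotientGroup.eq_iff_div_mem, div_eq_mul_inv] at hxy; exact hxy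
  let zc : C := ⟨z, mC.2 zb⟩
  let ac : C := ⟨a, mC.2 ab⟩
  let kc : C := ⟨k, mC.2 fb⟩
  have a2 : a ^ 2 = e := by rw [pow_two, aa]
  refine pB2b_abs t l θ (zc : C ⧸ B) ac kc ?_ ?_ ?_ ?_ ?_ ?_ ?_ ?_ ?_ ?_ ?_ ?_
  · rw [injective_iff_map_eq_one]
    intro x hx
    obtain ⟨x, rfl⟩ := QuotientGroup.mk_surjective x
    have h1 : θ0 x ∈ B := (QuotientGroup.eq_one_iff _).1 hx
    have h2 : τ * (τ * x * τ⁻¹) * τ⁻¹ ∈ zpowers b := pt _ h1
    rw [show τ * (τ * x * τ⁻¹) * τ⁻¹ = (τ * τ) * x * (τ * τ)⁻¹ by group, tt, one_mul, inv_one, mul_one] at h2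
    exact (QuotientGroup.eq_one_iff _).2 h2
  · rw [← QuotientGroup.mk_pow, show zc ^ 3 = 1 from Subtype.ext z3, QuotientGroup.mk_one]
  · intro h1
    have h2 := p4 z ((QuotientGroup.eq_one_iff zc).1 h1)
    rw [pow_succ, z3, one_mul] at h2
    exact z1 h2
  · intro g hg
    obtain ⟨g, rfl⟩ := QuotientGroup.mk_surjective g
    have h1 := eqv' (g * zc * g⁻¹) zc (by
      rw [QuotientGroup.mk_mul, QuotientGroup.mk_mul, hg, QuotientGroup.mk_inv, mul_inv_cancel_right])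
    have h1' : (g : G) * z * (g : G)⁻¹ * z⁻¹ ∈ zpowers b := h1
    have h2 := p4 _ h1'
    have h3 : ((g : G) * z * (g : G)⁻¹ * z⁻¹ * z) ^ 3 = 1 := by
      rw [inv_mul_cancel_right, conj_pow, z3]; group
    rw [(pc _ h1' z zb).symm.mul_pow, z3, mul_one] at h3
    rw [pow_succ, h3, one_mul, mul_inv_eq_one, mul_inv_eq_iff_eq_mul] at h2
    obtain ⟨i, j, hij⟩ := cz g h2 (mC.1 g.2)
    rw [eqv g (zc ^ i) (by
      show (g : G) * (z ^ i)⁻¹ ∈ _
      rw [hij, (Commute.pow_pow zb i j).eq, mul_inv_cancel_right]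
      exact pow_mem (mem_zpowers b) j), QuotientGroup.mk_pow]
    exact pow_mem (mem_zpowers _) i
  · rw [← QuotientGroup.mk_pow, show ac ^ 4 = 1 from Subtype.ext (by
      show a ^ 4 = 1
      rw [show 4 = 2 * 2 from rfl, pow_mul, a2, pow_two, ee]), QuotientGroup.mk_one]
  · rw [← QuotientGroup.mk_pow, ← QuotientGroup.mk_inv, ← QuotientGroup.mk_inv, ← QuotientGroup.mk_mul,
      ← QuotientGroup.mk_mul]
    congr 1
    exact Subtype.ext (by show a ^ 2 * z * (a ^ 2)⁻¹ = z⁻¹; rw [a2, ez])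
  · rw [← QuotientGroup.mk_mul, QuotientGroup.eq_one_iff]; exact ff
  · rw [Commute, SemiconjBy, ← mul_inv_eq_iff_eq_mul, ← QuotientGroup.mk_pow, ← QuotientGroup.mk_inv,
      ← QuotientGroup.mk_mul, ← QuotientGroup.mk_mul]
    refine eqv _ _ ?_
    show k * a ^ 2 * k⁻¹ * (a ^ 2)⁻¹ ∈ _
    have hm : e' ∈ zpowers b := bb ▸ mul_mem (mem_zpowers b) (mem_zpowers b)
    have hc : Commute e e' := pc _ hm e (aa ▸ ab.mul_left ab)
    rw [a2, fe, hc.eq, mul_inv_cancel_right]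
    exact hm
  · rintro ⟨n, hn⟩
    have h1 := eqv' kc (ac ^ n) (by rw [QuotientGroup.mk_zpow]; exact hn.symm)
    have h1' : k * (a ^ n)⁻¹ ∈ zpowers b := h1
    have h2 : Commute e (k * (a ^ n)⁻¹) := pc _ h1' e (aa ▸ ab.mul_left ab)
    have h3 : Commute e (a ^ n) := (aa ▸ (Commute.refl a).mul_left (Commute.refl a) : Commute e a).zpow_right n
    have h4 := h2.mul_right h3
    rw [inv_mul_cancel_right] at h4
    rw [← h4.eq, mul_inv_cancel_right] at fe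
    exact e1 (mul_left_cancel (a := e) (by rw [← fe, mul_one]))
  · show ((θ0 zc : C) : C ⧸ B) = _
    congr 1
    exact Subtype.ext tz
  · show ((θ0 ac : C) : C ⧸ B) = _
    rw [← QuotientGroup.mk_inv]
    congr 1
    exact Subtype.ext ta
  · show ((θ0 kc : C) : C ⧸ B) = _
    rw [← QuotientGroup.mk_inv, ← QuotientGroup.mk_mul, ← QuotientGroup.mk_mul]
    exact eqv _ _ tf

end Cfsg.Agent.L1Se
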