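import Cfsg.Agent.H23.Baer
import Cfsg.Agent.FT.BG07a
import Cfsg.Agent.H5.PLen

/-! The Thompson–Bender lemma and the transitivity theorem for groups with `p`-constrained `p`-locals. -/

set_option autoImplicit false
set_option linter.unusedSectionVars false
set_option linter.unusedVariables false
set_option linter.style.haveILetI false

namespace Cfsg.Agent.H23

open Cfsg Cfsg.Agent.FT Subgroup
open scoped commutatorElement

variable {G : Type*} [Group G] [Finite G] {p q : ℕ} {A B E K M Q U : Subgroup G}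

theorem three_subgroup_mod {C N : Subgroup G} (hA : A ≤ N(N)) (hB : B ≤ N(N)) (hC : C ≤ N(N))
    (h1 : ⁅⁅A, B⁆, C⁆ ≤ N) (h2 : ⁅⁅B, C⁆, A⁆ ≤ N) : ⁅⁅C, A⁆, B⁆ ≤ N := by
  rw [← quo_cents_iff (comm_le_of_le hC hA) hB, quo_comm hC hA, ← comm_eq_bot]
  refine three_subgroup ?_ ?_
  · rw [comm_eq_bot, ← quo_comm hA hB]; exact quo_cents_of_comm_le h1
  · rw [comm_eq_bot, ← quo_comm hB hC]; exact quo_cents_of_comm_le h2

/-- if `Q` centralises `[U, A]` then `[Q, A]` centralises `U`. -/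
theorem comm_cents_of_comm_cents (hAU : A ≤ N(U)) (hQU : Q ≤ N(U)) (hAQ : A ≤ N(Q)) (hc : Cop U Q)
    (h : Q ≤ C(⁅U, A⁆)) : ⁅Q, A⁆ ≤ C(U) := by
  have hle := comm_le_left hAQ
  refine stable_factor_cent (N := ⁅U, A⁆) (hle.trans hQU) (hc.mono_right hle) ?_ (hle.trans h)
  rw [commC]
  refine three_subgroup_mod (norm_comm_right U A) (norm_comm_left U A) (h.trans (cen_le_nrm _)) ?_ ?_
  · rw [commC A U, comm_eq_bot'.2 h]; exact bot_le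
  · exact commSS (comm_le_left hQU) le_rfl

/-- the quotient map `M → M / O_{p'}(M)`. -/
abbrev pq (p : ℕ) (M : Subgroup G) : M →* M ⧸ pPrimeCore p M := QuotientGroup.mk' _

theorem pker_pq (hp : p.Prime) (M : Subgroup G) : pker (pq p M) = O[{p}ᶜ](M) := by
  rw [pcore_compl_singleton hp, ← map_so (pker_le (pq p M)), pker_so, QuotientGroup.ker_mk']

theorem pCore_pGrp {X : Type*} [Group X] [Finite X] (hp : p.Prime) : PGrp p (pCore p X) := by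
  have := pcore_pi {p} (⊤ : Subgroup X)
  rwa [pcore_top, piCore_singleton hp] at this

theorem le_nrm_pCore {X : Type*} [Group X] (p : ℕ) (A : Subgroup X) : A ≤ N(pCore p X) := by
  have : (pCore p X).Normal := Subgroup.sSup_normal _ fun _ h => h.1
  rw [normalizer_eq_top]; exact le_top

theorem le_p'core_of_cons (hp : p.Prime) (hM : IsPConstrained p M) (hQ : Q ≤ M) (hQ' : PiGrp {p}ᶜ Q)
    (h : pmap (pq p M) Q ≤ C(pCore p _)) : Q ≤ O[{p}ᶜ](M) := by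
  haveI := Fact.mk hp
  rw [← pker_pq hp, ← pmap_eq_bot hQ]
  exact (((pCore_pGrp hp).mono (h.trans (H5b.isPConstrained_iff.1 hM)))).eq_bot (hQ'.pmap _)

theorem exists_lift_cen (hp : p.Prime) (hA : A ≤ M) (hAp : PGrp p A) {u : M ⧸ pPrimeCore p M} (hu : PiElt {p} u)
    (hc : u ∈ C(pmap (pq p M) A)) : ∃ x ∈ M ⊓ C(A), PiElt {p} x ∧ pfun (pq p M) x = u := by
  have h1 := coprime_pmap_cent (pq p M) le_rfl hA (hA.trans (le_nrm M))
    (by rw [pker_pq hp]; exact (hAp.cop ((pcore_pi _ M).mono inf_le_right)).symm') (Or.inr hAp.sol)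
  have h2 : u ∈ pmap (pq p M) (M ⊓ C(A)) := by
    rw [h1, pmap_dom, QuotientGroup.range_mk']; exact ⟨mem_top _, hc⟩
  obtain ⟨x, hx, -, rfl⟩ := mem_pmap.1 h2
  exact ⟨constt {p} x, constt_mem _ hx, piElt_constt _ _, by rw [pfun_constt _ _ hx.1, hu.constt_eq]⟩

theorem cents_of_mem_inf {X : Type*} [Group X] [Finite X] {A Q : Subgroup X} (hp : p.Prime) (hQ : PiGrp {p}ᶜ Q)
    (hn : A ≤ N(Q)) : pCore p X ⊓ A ≤ C(Q) := by
  rw [← comm_eq_bot, eq_bot_iff, ← ((pCore_pGrp hp).cop hQ).inf]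
  exact le_inf ((commSS inf_le_left le_rfl).trans (comm_le_left (le_nrm_pCore p Q)))
    (comm_le_right (inf_le_right.trans hn))

/-- the Thompson–Bender lemma. -/
theorem thompson_bender (hp : p.Prime) (hp2 : p ≠ 2) (hM : IsPConstrained p M) (hA : A ≤ M) (hAp : PGrp p A)
    (hΩ : ∀ x ∈ M ⊓ C(A), x ^ p = 1 → x ∈ A) (hQ : Q ≤ M) (hQ' : PiGrp {p}ᶜ Q) (hn : A ≤ N(Q)) :
    Q ≤ O[{p}ᶜ](M) := by
  refine le_p'core_of_cons hp hM hQ hQ' (p_norm_q hp hp2 (hAp.pmap _) (pCore_pGrp hp) (hQ'.pmap _)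
    (pmap_norms _ hn) (le_nrm_pCore _ _) (le_nrm_pCore _ _) fun u hu e => ?_)
  obtain ⟨x, hx, hx', rfl⟩ := exists_lift_cen hp hA hAp (pElt_of_pow_eq_one hp e) hu.2
  have h1 : x ^ p = 1 := by
    rw [← pfun_pow _ hx.1, pfun_eq_one_iff (pow_mem hx.1 p), pker_pq hp] at e
    exact (hx'.pow p).eq_one_of_mem (pcore_pi _ M) e
  exact cents_of_mem_inf hp (hQ'.pmap _) (pmap_norms _ hn) ⟨hu.1, mem_pmap_of_mem _ hx.1 (hΩ x hx h1)⟩

/-- the Thompson–Bender lemma for Sylow subgroups of class at most two. -/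
theorem thompson_bender_two (hp : p.Prime) (hM : IsPConstrained p M) (hA : A ≤ M) (hAp : PGrp p A) (hab : Ab A)
    (hcl : ∀ S, S ≤ M → PGrp p S → ⁅⁅S, S⁆, S⁆ = ⊥)
    (hΩ : ∀ x ∈ M ⊓ C(A), PiElt {p} x → x ∈ A) (hQ : Q ≤ M) (hQ' : PiGrp {p}ᶜ Q) (hn : A ≤ N(Q)) :
    Q ≤ O[{p}ᶜ](M) := by
  refine le_p'core_of_cons hp hM hQ hQ' ?_
  have hU := pCore_pGrp (X := M ⧸ pPrimeCore p M) hp
  have hA' := hAp.pmap (pq p M)
  have hQ'' := hQ'.pmap (pq p M)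
  have hn' := pmap_norms (pq p M) hn
  have h1 : pCore p _ ⊓ C(pmap (pq p M) A) ≤ C(pmap (pq p M) Q) := fun u hu => by
    obtain ⟨x, hx, hx', rfl⟩ := exists_lift_cen hp hA hAp (hU.piElt hu.1) hu.2
    exact cents_of_mem_inf hp hQ'' hn' ⟨hu.1, mem_pmap_of_mem _ hx.1 (hΩ x hx hx')⟩
  have h1' : pCore p _ ⊓ C(pmap (pq p M) A) ≤ C(pmap (pq p M) Q ⊓ C(pmap (pq p M) A)) :=
    h1.trans (cen_anti inf_le_left)
  have h2 := p_times_q hA' hU (hQ''.mono inf_le_left) (centsC inf_le_right) (le_nrm_pCore _ _)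
    (le_nrm_pCore _ _) h1'
  obtain ⟨S, hS, hAS⟩ := hAp.exists_syl hA
  have hS' := hS.pmap (pq p M) le_rfl
  have hUS : pCore p _ ≤ pmap (pq p M) S := by
    refine hS'.pcore_le.trans' ?_
    rw [pmap_dom, QuotientGroup.range_mk', pcore_top, piCore_singleton hp]
  have h3 : ⁅pCore p (M ⧸ pPrimeCore p M), pmap (pq p M) A⁆ ≤ C(pmap (pq p M) A) := by
    rw [← comm_eq_bot, eq_bot_iff, ← pmap_bot (pq p M), ← hcl S hS.le hS.pi, pmap_comm _ ((der_le S).trans hS.le) hS.le,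
      pmap_comm _ hS.le hS.le]
    exact commSS (commSS hUS (pmap_mono _ hAS)) (pmap_mono _ hAS)
  have h4 := comm_cents_of_comm_cents (le_nrm_pCore p _) (le_nrm_pCore p _) hn' (hU.cop hQ'')
    (centsC ((le_inf (comm_le_left (le_nrm_pCore p _)) h3).trans h1))
  rw [← (coprime_cent_prod_or hn' (hA'.cop hQ'').symm' (Or.inr hA'.sol)).sup]
  exact sup_le h4 h2

/-- the core of the transitivity theorem. -/
theorem trans_core (hqp : q ≠ p) (hE : PGrp p E) (hab : Ab E) (hB : PnElem p 3 B E)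
    (hloc : ∀ X, PnElem p 1 X B → ∃ O, PiGrp {p}ᶜ O ∧ E ≤ N(O) ∧ ∀ Y, Y ≤ C(X) → PGrp q Y → E ≤ N(Y) → Y ≤ O)
    (hK : ∀ c ∈ C(E), PiElt {p}ᶜ c → c ∈ K) : TransOn K E q := by
  suffices h : ∀ D Q₁ Q₂, MaxNormed E q Q₁ → MaxNormed E q Q₂ → Q₁ ⊓ Q₂ = D → ∃ k ∈ K, Q₂ = cj k Q₁ from
    fun Q₁ Q₂ h₁ h₂ => h _ Q₁ Q₂ h₁ h₂ rfl
  intro D
  induction D using WellFoundedGT.induction with
  | ind D ih =>
  intro Q₁ Q₂ h₁ h₂ hD
  by_cases e : Q₁ = Q₂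
  · exact ⟨1, one_mem K, by rw [cj_one, e]⟩
  have l₁ : D < Q₁ := lt_of_le_of_ne (hD ▸ inf_le_left) fun e' =>
    e (h₁.max h₂.pgrp h₂.nrm (e' ▸ hD ▸ inf_le_right)).symm
  have l₂ : D < Q₂ := lt_of_le_of_ne (hD ▸ inf_le_right) fun e' =>
    e (h₂.max h₁.pgrp h₁.nrm (e' ▸ hD ▸ inf_le_left))
  have hED : E ≤ N(D) := hD ▸ normsI h₁.nrm h₂.nrm
  have q' : ∀ {Y : Subgroup G}, PGrp q Y → PiGrp {p}ᶜ Y := fun h => h.p' hqp
  have n₁ := normsI h₁.nrm (norms_norm hED)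
  have n₂ := normsI h₂.nrm (norms_norm hED)
  have c₁ : Cop (Q₁ ⊓ N(D)) B := ((hE.mono hB.le).cop (q' (h₁.pgrp.mono inf_le_left))).symm'
  have c₂ : Cop (Q₂ ⊓ N(D)) B := ((hE.mono hB.le).cop (q' (h₂.pgrp.mono inf_le_left))).symm'
  obtain ⟨B₁, hB₁, m₁⟩ : ∃ B₁, PnElem p 2 B₁ B ∧ ¬ Q₁ ⊓ N(D) ⊓ C(B₁) ≤ D := by
    by_contra hc
    push Not at hc
    exact (h₁.pgrp.lt_subnorm l₁).not_ge (hB.gen_cent (hB.le.trans n₁) c₁ hc)
  obtain ⟨X, hX, m₂⟩ := hB₁.exists_cent_not_le (hB₁.le.trans (hB.le.trans n₂)) (c₂.mono_right hB₁.le)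
    (h₂.pgrp.lt_subnorm l₂).not_ge
  have m₁' : ¬ Q₁ ⊓ N(D) ⊓ C(X) ≤ D := fun h => m₁ ((inf_le_inf_left _ (cen_anti hX.le)).trans h)
  obtain ⟨O, hO, hEO, hO'⟩ := hloc X (hX.mono hB₁.le)
  have hEX : E ≤ N(C(X)) := norms_cent (hab.norms (hX.le.trans (hB₁.le.trans hB.le)))
  have hH : PiGrp {p}ᶜ (D ⊔ O ⊓ N(D)) := (q' (h₁.pgrp.mono l₁.le)).sup (hO.mono inf_le_left) inf_le_right
  have hEH : E ≤ N(D ⊔ O ⊓ N(D)) := normsY hED (normsI hEO (norms_norm hED))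
  have key : ∀ Q, MaxNormed E q Q → D ≤ Q → ∃ R, Syl q R (D ⊔ O ⊓ N(D)) ∧ E ≤ N(R) ∧ D ⊔ Q ⊓ N(D) ⊓ C(X) ≤ R := by
    intro Q hQ hle
    have n := normsI (normsI hQ.nrm (norms_norm hED)) hEX
    have hq := hQ.pgrp.mono (inf_le_left.trans inf_le_left : Q ⊓ N(D) ⊓ C(X) ≤ Q)
    exact coprime_Sylow_subset hEH (hE.cop hH).symm' (Or.inr hE.sol)
      (sup_le_sup_left (le_inf (hO' _ inf_le_right hq n) (inf_le_left.trans inf_le_right)) D)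
      (hQ.pgrp.mono (sup_le hle (inf_le_left.trans inf_le_left))) (normsY hED n)
  obtain ⟨R₁, s₁, r₁, t₁⟩ := key Q₁ h₁ l₁.le
  obtain ⟨R₂, s₂, r₂, t₂⟩ := key Q₂ h₂ l₂.le
  obtain ⟨c, hc, rfl⟩ := coprime_Sylow_trans hEH (hE.cop hH).symm' (Or.inr hE.sol) s₁ r₁ s₂ r₂
  obtain ⟨Q₃, h₃, le₃⟩ := max_normed_exists s₁.pi r₁
  obtain ⟨k₁, hk₁, e₁⟩ := ih _ (lt_of_lt_of_le (left_lt_sup.2 m₁')
    (le_inf (sup_le l₁.le (inf_le_left.trans inf_le_left)) (t₁.trans le₃))) Q₁ Q₃ h₁ h₃ rfl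
  obtain ⟨k₂, hk₂, e₂⟩ := ih _ (lt_of_lt_of_le (left_lt_sup.2 m₂)
    (le_inf (t₂.trans (cj_mono c le₃)) (sup_le l₂.le (inf_le_left.trans inf_le_left)))) _ Q₂
    (h₃.cj_nrm (cen_le_nrm _ hc.2)) h₂ rfl
  exact ⟨k₂ * c * k₁, mul_mem (mul_mem hk₂ (hK c hc.2 (hH.piElt hc.1))) hk₁, by rw [e₂, e₁, cj_cj, cj_cj]⟩

theorem npc_cen (hE : PGrp p E) (hab : Ab E) (hfull : ∀ x ∈ C(E), PiElt {p} x → x ∈ E) : NPC p C(E) :=
  npc_of_syl_center (syl_of_max hE hab.le_cen fun Q hQ h1 h2 =>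
    le_antisymm (fun x hx => hfull x (h2 hx) (hQ.piElt hx)) h1) le_rfl

/-- the transitivity theorem. -/
theorem transitivity (hp : p.Prime) (hqp : q ≠ p) (hloc : ∀ T : Subgroup G, PGrp p T → T ≠ ⊥ → IsPConstrained p N(T))
    (h2 : p = 2 → ∀ S : Subgroup G, PGrp p S → ⁅⁅S, S⁆, S⁆ = ⊥) (hE : PGrp p E) (hab : Ab E) (h3 : 3 ≤ prank p E)
    (hfull : ∀ x ∈ C(E), PiElt {p} x → x ∈ E) : TransOn O[{p}ᶜ](C(E)) E q := by
  obtain ⟨B, hB⟩ := (le_prank_iff hp).1 h3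
  refine trans_core hqp hE hab hB (fun X hX => ?_) fun c hc hc' => Hall.mem_pcore (npc_cen hE hab hfull) hc hc'
  have hEX : E ≤ N(X) := hab.norms (hX.le.trans hB.le)
  refine ⟨O[{p}ᶜ](N(X)), pcore_pi _ _, hEX.trans (pcore_nml _ _).nrm, fun Y hY hq hn => ?_⟩
  by_cases hp2 : p = 2
  · exact thompson_bender_two hp (hloc X hX.pGrp hX.ne_bot) hEX hE hab (fun S _ => h2 hp2 S)
      (fun x hx => hfull x hx.2) (hY.trans (cen_le_nrm X)) (hq.p' hqp) hn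
  · exact thompson_bender hp hp2 (hloc X hX.pGrp hX.ne_bot) hEX hE
      (fun x hx e => hfull x hx.2 (pElt_of_pow_eq_one hp e)) (hY.trans (cen_le_nrm X)) (hq.p' hqp) hn

end Cfsg.Agent.H23
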